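import Cfsg.Agent.H457.Half.Closed

/-!
# Fixed spaces over fields of positive characteristic (helper457)
-/

set_option autoImplicit false

namespace Cfsg.Agent.H457.Half

open Module Subgroup TensorProduct

section

variable {k G V : Type*} [Field k] [Group G] [AddCommGroup V] [Module k V]

/-- extension of scalars -/
noncomputable def bcRep (K : Type*) [Field K] [Algebra k K] (ρ : Representation k G V) :
    Representation K G (K ⊗[k] V) where
  toFun g := (ρ g).baseChange K
  map_one' := by rw [map_one]; exact LinearMap.baseChange_id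
  map_mul' a b := by rw [map_mul]; exact LinearMap.baseChange_comp _ _

theorem bcRep_apply (K : Type*) [Field K] [Algebra k K] (ρ : Representation k G V) (g : G) :
    bcRep K ρ g = (ρ g).baseChange K := rfl

/-- the fixed space does not get smaller -/
theorem finrank_fix_le_bc [FiniteDimensional k V] (K : Type*) [Field K] [Algebra k K] (ρ : Representation k G V)
    (P : Subgroup G) : finrank k (fix ρ P) ≤ finrank K (fix (bcRep K ρ) P) := by
  let U := fix ρ P
  let L : (K ⊗[k] U) →ₗ[K] (K ⊗[k] V) := U.subtype.baseChange K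
  have hL : Function.Injective L := by
    have := Module.Flat.lTensor_preserves_injective_linearMap (M := K) U.subtype U.injective_subtype
    exact this
  have hmem : ∀ w, L w ∈ fix (bcRep K ρ) P := by
    intro w y hy
    have h1 : (ρ y).comp U.subtype = U.subtype := by
      apply LinearMap.ext
      intro u
      exact u.2 y hy
    rw [bcRep_apply]
    have h2 : ((ρ y).baseChange K) (L w) = (((ρ y).comp U.subtype).baseChange K) w := by
      rw [LinearMap.baseChange_comp]
      rfl
    rw [h2, h1]
  let L' : (K ⊗[k] U) →ₗ[K] fix (bcRep K ρ) P := LinearMap.codRestrict _ L hmem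
  have hL' : Function.Injective L' := fun a b hab => hL (congrArg Subtype.val hab)
  have h3 := LinearMap.finrank_le_finrank_of_injective hL'
  rwa [Module.finrank_baseChange] at h3

theorem NoFix.bc [Finite G] {ρ : Representation k G V} (h : NoFix ρ) (K : Type*) [Field K] [Algebra k K] :
    NoFix (bcRep K ρ) := by
  intro N hN hne hc w hw
  have hf : Fintype N := Fintype.ofFinite N
  have hc' : (Nat.card N : k) ≠ 0 := by
    intro h0
    apply hc
    have := congrArg (algebraMap k K) h0
    rwa [map_natCast, map_zero] at this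
  have h1 : ∑ n : N, (ρ n : V →ₗ[k] V) = 0 := by
    apply LinearMap.ext
    intro v
    rw [LinearMap.sum_apply]
    exact h.sum_eq_zero hN hne hc' v
  have h2 : ∑ n : N, bcRep K ρ n w = 0 := by
    have h3 := congrArg (LinearMap.baseChangeHom k K V V) h1
    rw [map_sum, map_zero] at h3
    have h4 := LinearMap.congr_fun h3 w
    rw [LinearMap.sum_apply] at h4
    exact h4
  rw [Finset.sum_congr rfl (fun (n : N) _ => hw n n.2), Finset.sum_const, Finset.card_univ,
    ← Nat.card_eq_fintype_card, ← Nat.cast_smul_eq_nsmul K] at h2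
  exact (smul_eq_zero.1 h2).resolve_left hc

/-- commuting unipotent endomorphisms have a common fixed vector -/
theorem exists_common_fixed [FiniteDimensional k V] [Nontrivial V] {A : Type*}
    (σ : A → V →ₗ[k] V) (hcomm : ∀ a b v, σ a (σ b v) = σ b (σ a v))
    (hun : ∀ a, ∃ n : ℕ, (σ a - 1) ^ n = 0) :
    ∃ v : V, v ≠ 0 ∧ ∀ a, σ a v = v := by
  classical
  let S : Set (Submodule k V) := {U | U ≠ ⊥ ∧ ∀ a, ∀ u ∈ U, σ a u ∈ U}
  have hS : S.Nonempty := ⟨⊤, top_ne_bot, fun _ _ _ => trivial⟩
  have hwf : WellFounded ((· < ·) : Submodule k V → Submodule k V → Prop) := wellFounded_lt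
  set U := hwf.min S hS with hU
  have hUS : U ∈ S := hwf.min_mem S hS
  have hmin : ∀ U' ∈ S, ¬ U' < U := fun U' hU' => hwf.not_lt_min S hU'
  have hsc : ∀ a, ∀ u ∈ U, σ a u = u := by
    intro a
    obtain ⟨n, hn⟩ := hun a
    obtain ⟨u₀, hu₀, hu₀'⟩ := (Submodule.ne_bot_iff U).1 hUS.1
    -- a nonzero fixed vector in `U`
    have hpow : ∀ m : ℕ, ((σ a - 1) ^ m) u₀ ∈ U := by
      intro m
      induction m with
      | zero => exact hu₀
      | succ m ih =>
        rw [pow_succ', Module.End.mul_apply, LinearMap.sub_apply, Module.End.one_apply]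
        exact U.sub_mem (hUS.2 a _ ih) ih
    have hex : ∃ m : ℕ, ((σ a - 1) ^ m) u₀ = 0 := ⟨n, by rw [hn]; rfl⟩
    have hm0 : Nat.find hex ≠ 0 := by
      intro h0
      have := Nat.find_spec hex
      rw [h0, pow_zero, Module.End.one_apply] at this
      exact hu₀' this
    obtain ⟨m, hm⟩ := Nat.exists_eq_succ_of_ne_zero hm0
    have h1 : ((σ a - 1) ^ m) u₀ ≠ 0 := Nat.find_min hex (by omega)
    have h2 : σ a (((σ a - 1) ^ m) u₀) = ((σ a - 1) ^ m) u₀ := by
      have h3 := Nat.find_spec hex
      rw [hm, Nat.succ_eq_add_one, pow_succ', Module.End.mul_apply, LinearMap.sub_apply, Module.End.one_apply,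
        sub_eq_zero] at h3
      exact h3
    let U' : Submodule k V := U ⊓ LinearMap.ker (σ a - LinearMap.id)
    have hmem : ∀ v, v ∈ U' ↔ v ∈ U ∧ σ a v = v := by
      intro v
      rw [Submodule.mem_inf, LinearMap.mem_ker, LinearMap.sub_apply, LinearMap.id_apply, sub_eq_zero]
    have hU'S : U' ∈ S := by
      refine ⟨?_, ?_⟩
      · intro h
        have h3 : ((σ a - 1) ^ m) u₀ ∈ U' := (hmem _).2 ⟨hpow m, h2⟩
        rw [h, Submodule.mem_bot] at h3
        exact h1 h3
      · intro b v hv
        rw [hmem] at hv ⊢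
        exact ⟨hUS.2 b v hv.1, by rw [hcomm, hv.2]⟩
    have hle : U' ≤ U := inf_le_left
    have heq : U' = U := by
      by_contra hne
      exact hmin U' hU'S (lt_of_le_of_ne hle hne)
    intro v hv
    rw [← heq] at hv
    exact ((hmem v).1 hv).2
  obtain ⟨v, hv, hv0⟩ := (Submodule.ne_bot_iff U).1 hUS.1
  exact ⟨v, hv0, fun a => hsc a v hv⟩

/-- `O_ℓ(G) = 1` for a faithful irreducible module in characteristic `ℓ` -/
theorem noL [Finite G] [Group.IsSolvable G] [FiniteDimensional k V] [Nontrivial V] {ρ : Representation k G V}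
    (hirr : Irr ρ) (hfaith : Function.Injective ρ) : NoL k G := by
  intro N r hN hne hr hNr h0
  have hfr : Fact r.Prime := ⟨hr⟩
  have hchar : CharP k r := by
    obtain ⟨ℓ, hℓ⟩ := CharP.exists k
    have h1 : ℓ ∣ r := (CharP.cast_eq_zero_iff k ℓ r).1 h0
    have h2 : ℓ ≠ 1 := CharP.char_ne_one k ℓ
    have h3 : ℓ = r := ((Nat.dvd_prime hr).1 h1).resolve_left h2
    rw [← h3]; exact hℓ
  have hNt : Nontrivial N := (Subgroup.nontrivial_iff_ne_bot _).2 hne
  obtain ⟨r', hr', A, hA, hAab, hAr, hAb⟩ := Lib.SolvableMinNormal.exists_characteristic_pgroup (G := N)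
  have hAn : (A.map N.subtype).Normal := ConjAct.normal_of_characteristic_of_normal
  have hAb' : A.map N.subtype ≠ ⊥ := by
    rw [Ne, Subgroup.map_eq_bot_iff_of_injective _ N.subtype_injective]
    exact hAb
  have hAp : IsPGroup r (A.map N.subtype) := (hNr.to_subgroup A).map _
  have hchE : CharP (Module.End k V) r := charP_of_injective_algebraMap
    (FaithfulSMul.algebraMap_injective k (Module.End k V)) r
  obtain ⟨v, hv0, hv⟩ := exists_common_fixed (fun a : A.map N.subtype => (ρ a : V →ₗ[k] V)) (by
    rintro ⟨_, a, ha, rfl⟩ ⟨_, b, hb, rfl⟩ v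
    have h1 : a * b = b * a := congrArg Subtype.val (hAab.is_comm.comm ⟨a, ha⟩ ⟨b, hb⟩)
    change ρ (a : G) (ρ (b : G) v) = ρ (b : G) (ρ (a : G) v)
    rw [← Module.End.mul_apply, ← Module.End.mul_apply, ← map_mul, ← map_mul, ← Subgroup.coe_mul, h1,
      Subgroup.coe_mul]) (by
    intro a
    obtain ⟨n, hn⟩ := hAp a
    refine ⟨r ^ n, ?_⟩
    have h1 : ((ρ (a : G) : Module.End k V) - 1) ^ r ^ n = (ρ (a : G) : Module.End k V) ^ r ^ n - 1 ^ r ^ n :=
      sub_pow_char_pow_of_commute r n (Commute.one_right _)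
    have h2 : (a : G) ^ r ^ n = 1 := congrArg Subtype.val hn
    rw [h1, ← map_pow, h2, map_one, one_pow, sub_self])
  have h1 := fix_normal_eq_bot hirr hfaith hAn hAb'
  have h2 : v ∈ fix ρ (A.map N.subtype) := fun y hy => hv ⟨y, hy⟩
  rw [h1, Submodule.mem_bot] at h2
  exact hv0 h2

end

/-- **Faithful irreducible representations over an arbitrary field.** -/
theorem half {k G V : Type*} [Field k] [Group G] [Finite G] [Group.IsSolvable G]
    [AddCommGroup V] [Module k V] [FiniteDimensional k V] [Nontrivial V] {p : ℕ} [hp : Fact p.Prime] (hp3 : 3 < p)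
    (P : Subgroup G) (hP : Nat.card P = p) (hgen : normalClosure (P : Set G) = ⊤) (hyp : HypP P p)
    (ρ : Representation k G V) (hirr : Irr ρ) (hfaith : Function.Injective ρ) :
    2 * finrank k (fix ρ P) < finrank k V := by
  let K := AlgebraicClosure k
  have hNF : NoFix ρ := by
    intro N hN hne _ v hv
    have h1 := fix_normal_eq_bot hirr hfaith hN hne
    have h2 : v ∈ fix ρ N := hv
    rwa [h1, Submodule.mem_bot] at h2
  have hL : NoL K G := by
    intro N r hN hne hr hNr h0
    refine noL hirr hfaith N r hN hne hr hNr ?_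
    apply (algebraMap k K).injective
    rw [map_natCast, map_zero]
    exact h0
  have hnt : Nontrivial (K ⊗[k] V) := by
    apply Module.nontrivial_of_finrank_pos (R := K)
    rw [Module.finrank_baseChange]
    exact finrank_pos
  have h1 := closed hp3 P hP hgen hyp hL _ (K ⊗[k] V) (bcRep K ρ) (hNF.bc K) rfl
  rw [Module.finrank_baseChange] at h1
  have h2 := finrank_fix_le_bc K ρ P
  omega

end Cfsg.Agent.H457.Half
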