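import Cfsg.Agent.H457.Half.Primitive

/-!
# Fixed spaces over algebraically closed fields (helper457)

* `closed_irr` : the irreducible faithful case;
* `closed` : modules without fixed vectors of normal subgroups of order prime to the characteristic;
* `half` : faithful irreducible representations over any field of positive characteristic.
-/

set_option autoImplicit false

namespace Cfsg.Agent.H457.Half

open Module Subgroup

/-- the bound for `p`-sections -/
def HypP {G : Type*} [Group G] (P : Subgroup G) (p : ℕ) : Prop :=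
  ∀ E : Subgroup G, ESec E p → ∀ y ∈ P, y ≠ 1 → (p - 1) ^ 2 * Nat.card (cen E y) ≤ Nat.card E

section

variable {k G V : Type*} [Field k] [Group G] [AddCommGroup V] [Module k V]

/-- the fixed space of a normal subgroup is invariant -/
theorem fix_invariant (ρ : Representation k G V) (N : Subgroup G) (hN : N.Normal) (g : G) {v : V}
    (hv : v ∈ fix ρ N) : ρ g v ∈ fix ρ N := by
  intro n hn
  have h1 : n * g = g * (g⁻¹ * n * g⁻¹⁻¹) := by group
  rw [← Module.End.mul_apply, ← map_mul, h1, map_mul, Module.End.mul_apply, hv _ (hN.conj_mem n hn g⁻¹)]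

/-- a faithful irreducible module has no vectors fixed by a nontrivial normal subgroup -/
theorem fix_normal_eq_bot {ρ : Representation k G V} (hirr : Irr ρ) (hfaith : Function.Injective ρ)
    {N : Subgroup G} (hN : N.Normal) (hne : N ≠ ⊥) : fix ρ N = ⊥ := by
  rcases hirr (fix ρ N) (fun g u hu => fix_invariant ρ N hN g hu) with h | h
  · exact h
  · exfalso
    apply hne
    rw [eq_bot_iff]
    intro n hn
    rw [mem_bot]
    apply hfaith
    rw [map_one]
    apply LinearMap.ext
    intro v
    have h1 : v ∈ fix ρ N := by rw [h]; trivial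
    exact h1 n hn

end

/-- **The irreducible case.** -/
theorem closed_irr {k G V : Type*} [Field k] [IsAlgClosed k] [Group G] [Finite G] [Group.IsSolvable G]
    [AddCommGroup V] [Module k V] [FiniteDimensional k V] [Nontrivial V] {p : ℕ} [hp : Fact p.Prime] (hp3 : 3 < p)
    (P : Subgroup G) (hP : Nat.card P = p) (hgen : normalClosure (P : Set G) = ⊤) (hyp : HypP P p)
    (ρ : Representation k G V) (hirr : Irr ρ) (hfaith : Function.Injective ρ) :
    2 * finrank k (fix ρ P) < finrank k V := by
  by_cases h1 : ∃ A : Subgroup G, A.Normal ∧ (∀ a ∈ A, ∀ b ∈ A, a * b = b * a) ∧ ¬ A ≤ center G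
  · obtain ⟨A, hAn, hab, hnc⟩ := h1
    exact imprimitive hp3 P hP hgen ρ hirr hfaith A hab hnc
  · push Not at h1
    by_cases h2 : center G = ⊤
    · -- `P` is normal
      have hPn : P.Normal := by
        refine ⟨fun x hx g => ?_⟩
        have h3 : x ∈ center G := by rw [h2]; trivial
        rw [mem_center_iff.1 h3 g, mul_inv_cancel_right]
        exact hx
      have hPb : P ≠ ⊥ := by
        rintro rfl
        rw [Subgroup.card_bot] at hP
        exact hp.out.one_lt.ne hP
      rw [fix_normal_eq_bot hirr hfaith hPn hPb, finrank_bot, mul_zero]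
      exact finrank_pos
    · obtain ⟨E, r, hr, hE⟩ := exists_eSec (fun A hA hab => h1 A hA hab) h2
      obtain ⟨ζ, hζ⟩ := exists_centralChar (ρ := ρ) hirr
      have hinj : Function.Injective ζ := by
        intro a b hab
        apply Subtype.ext
        apply hfaith
        apply LinearMap.ext
        intro v
        rw [hζ, hζ, hab]
      have hcyc : IsCyclic (center G) := isCyclic_of_injective_ringHom ζ hinj
      refine primitive hp3 P hP hgen ρ (ζ := ζ) ⟨hE, hζ, hinj⟩ fun y hy hy1 => ?_
      by_cases hpr : p = r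
      · subst hpr
        exact hyp E hE y hy hy1
      · obtain ⟨h3, -, h4⟩ := orderOf_of_card hP hgen hy hy1
        exact hE.index_le hr hcyc hpr h3 h4

section

variable {k G V : Type*} [Field k] [Group G] [AddCommGroup V] [Module k V]

/-- no vectors fixed by normal subgroups of order prime to the characteristic -/
def NoFix (ρ : Representation k G V) : Prop :=
  ∀ N : Subgroup G, N.Normal → N ≠ ⊥ → (Nat.card N : k) ≠ 0 → ∀ v : V, (∀ n ∈ N, ρ n v = v) → v = 0

/-- the subrepresentation -/
def subRep (ρ : Representation k G V) (U : Submodule k V) (hU : ∀ g : G, ∀ u ∈ U, ρ g u ∈ U) :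
    Representation k G U where
  toFun g := (ρ g).restrict (p := U) (q := U) (hU g)
  map_one' := by
    apply LinearMap.ext
    intro u
    apply Subtype.ext
    change ρ 1 (u : V) = u
    rw [map_one]
    rfl
  map_mul' a b := by
    apply LinearMap.ext
    intro u
    apply Subtype.ext
    change ρ (a * b) (u : V) = ρ a (ρ b u)
    rw [map_mul]
    rfl

theorem subRep_apply (ρ : Representation k G V) (U : Submodule k V) (hU : ∀ g : G, ∀ u ∈ U, ρ g u ∈ U) (g : G)
    (u : U) : ((subRep ρ U hU g u : U) : V) = ρ g u := rfl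

/-- the quotient representation -/
def quoRep (ρ : Representation k G V) (U : Submodule k V) (hU : ∀ g : G, ∀ u ∈ U, ρ g u ∈ U) :
    Representation k G (V ⧸ U) where
  toFun g := U.mapQ U (ρ g) (fun u hu => hU g u hu)
  map_one' := by
    apply LinearMap.ext
    intro u
    obtain ⟨v, rfl⟩ := U.mkQ_surjective u
    rw [Submodule.mkQ_apply, Submodule.mapQ_apply, map_one]
    rfl
  map_mul' a b := by
    apply LinearMap.ext
    intro u
    obtain ⟨v, rfl⟩ := U.mkQ_surjective u
    rw [Submodule.mkQ_apply, Submodule.mapQ_apply, map_mul]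
    rfl

theorem quoRep_apply (ρ : Representation k G V) (U : Submodule k V) (hU : ∀ g : G, ∀ u ∈ U, ρ g u ∈ U) (g : G)
    (v : V) : quoRep ρ U hU g (U.mkQ v) = U.mkQ (ρ g v) := rfl

theorem NoFix.sub {ρ : Representation k G V} (h : NoFix ρ) (U : Submodule k V) (hU : ∀ g : G, ∀ u ∈ U, ρ g u ∈ U) :
    NoFix (subRep ρ U hU) := by
  intro N hN hne hc v hv
  apply Subtype.ext
  exact h N hN hne hc v fun n hn => congrArg Subtype.val (hv n hn)

/-- the averaging operator vanishes -/
theorem NoFix.sum_eq_zero {ρ : Representation k G V} (h : NoFix ρ) {N : Subgroup G} [Fintype N] (hN : N.Normal)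
    (hne : N ≠ ⊥) (hc : (Nat.card N : k) ≠ 0) (v : V) : ∑ n : N, ρ n v = 0 := by
  apply h N hN hne hc
  intro m hm
  rw [map_sum, ← Equiv.sum_comp (Equiv.mulLeft (⟨m, hm⟩ : N)) (fun n : N => ρ n v)]
  refine Finset.sum_congr rfl fun n _ => ?_
  rw [← Module.End.mul_apply, ← map_mul]
  rfl

theorem NoFix.quo [Finite G] {ρ : Representation k G V} (h : NoFix ρ) (U : Submodule k V)
    (hU : ∀ g : G, ∀ u ∈ U, ρ g u ∈ U) : NoFix (quoRep ρ U hU) := by
  intro N hN hne hc v hv
  have hf : Fintype N := Fintype.ofFinite N
  obtain ⟨w, rfl⟩ := U.mkQ_surjective v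
  have h1 := h.sum_eq_zero hN hne hc w
  have h2 : ∑ n : N, quoRep ρ U hU n (U.mkQ w) = (Nat.card N : k) • U.mkQ w := by
    rw [Finset.sum_congr rfl (fun (n : N) _ => hv n n.2), Finset.sum_const, Finset.card_univ, Nat.card_eq_fintype_card,
      Nat.cast_smul_eq_nsmul]
  have h3 : ∑ n : N, quoRep ρ U hU n (U.mkQ w) = U.mkQ (∑ n : N, ρ n w) := by
    rw [map_sum]
    rfl
  rw [h3, h1, map_zero] at h2
  exact (smul_eq_zero.1 h2.symm).resolve_left hc

/-- subadditivity of the dimension of the fixed space -/
theorem finrank_fix_le [FiniteDimensional k V] (ρ : Representation k G V) (P : Subgroup G) (U : Submodule k V)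
    (hU : ∀ g : G, ∀ u ∈ U, ρ g u ∈ U) :
    finrank k (fix ρ P) ≤ finrank k (fix (subRep ρ U hU) P) + finrank k (fix (quoRep ρ U hU) P) := by
  let L : fix ρ P →ₗ[k] fix (quoRep ρ U hU) P :=
    U.mkQ.restrict (p := fix ρ P) (q := fix (quoRep ρ U hU) P) (by
      intro v hv y hy
      rw [quoRep_apply, hv y hy])
  have h1 := LinearMap.finrank_range_add_finrank_ker (K := k) (V := fix ρ P) (V₂ := fix (quoRep ρ U hU) P) L
  have h2 : finrank k (LinearMap.range L) ≤ finrank k (fix (quoRep ρ U hU) P) := Submodule.finrank_le _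
  let M : LinearMap.ker L →ₗ[k] fix (subRep ρ U hU) P :=
    { toFun := fun v => ⟨⟨(v : fix ρ P), by
          have h3 : L (v : fix ρ P) = 0 := v.2
          have h4 : U.mkQ ((v : fix ρ P) : V) = 0 := congrArg Subtype.val h3
          rwa [Submodule.mkQ_apply, Submodule.Quotient.mk_eq_zero] at h4⟩, fun y hy => by
          apply Subtype.ext
          exact (v : fix ρ P).2 y hy⟩
      map_add' := fun a b => rfl
      map_smul' := fun c a => rfl }
  have hM : Function.Injective M := by
    intro a b hab
    apply Subtype.ext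
    apply Subtype.ext
    exact congrArg (fun z : fix (subRep ρ U hU) P => ((z : U) : V)) hab
  have h3 := LinearMap.finrank_le_finrank_of_injective hM
  omega

end

/-- no nontrivial normal subgroups of characteristic order -/
def NoL (k G : Type*) [Field k] [Group G] : Prop :=
  ∀ (N : Subgroup G) (r : ℕ), N.Normal → N ≠ ⊥ → r.Prime → IsPGroup r N → (r : k) ≠ 0

/-- **Modules without fixed vectors of normal subgroups of order prime to the characteristic.** -/
theorem closed {k G : Type*} [Field k] [IsAlgClosed k] [Group G] [Finite G] [Group.IsSolvable G]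
    {p : ℕ} [hp : Fact p.Prime] (hp3 : 3 < p)
    (P : Subgroup G) (hP : Nat.card P = p) (hgen : normalClosure (P : Set G) = ⊤) (hyp : HypP P p) (hL : NoL k G)
    (n : ℕ) : ∀ (V : Type*) [AddCommGroup V] [Module k V] [FiniteDimensional k V] [Nontrivial V]
    (ρ : Representation k G V), NoFix ρ → finrank k V = n → 2 * finrank k (fix ρ P) < finrank k V := by
  induction n using Nat.strong_induction_on with
  | _ n ih =>
  intro V _ _ _ _ ρ hρ hn
  by_cases hirr : Irr ρ
  · -- `ρ` is faithful
    have hfaith : Function.Injective ρ := by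
      rw [injective_iff_map_eq_one]
      by_contra hc
      push Not at hc
      obtain ⟨g, hg, hg1⟩ := hc
      let N : Subgroup G := MonoidHom.ker (ρ : G →* (V →ₗ[k] V))
      have hgN : g ∈ N := hg
      have hNb : N ≠ ⊥ := by
        intro h
        rw [h, mem_bot] at hgN
        exact hg1 hgN
      have hNt : Nontrivial N := (Subgroup.nontrivial_iff_ne_bot _).2 hNb
      obtain ⟨r, hr, A, hA, -, hAr, hAb⟩ := Lib.SolvableMinNormal.exists_characteristic_pgroup (G := N)
      have hAn : (A.map N.subtype).Normal := ConjAct.normal_of_characteristic_of_normal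
      have hAb' : A.map N.subtype ≠ ⊥ := by
        rw [Ne, Subgroup.map_eq_bot_iff_of_injective _ N.subtype_injective]
        exact hAb
      have h1 := hL _ r hAn hAb' hr (hAr.map _)
      have hfr : Fact r.Prime := ⟨hr⟩
      have h2 : (Nat.card (A.map N.subtype) : k) ≠ 0 := by
        obtain ⟨m, hm⟩ := IsPGroup.iff_card.mp (hAr.map N.subtype)
        rw [hm, Nat.cast_pow]
        exact pow_ne_zero _ h1
      obtain ⟨v, hv⟩ := exists_ne (0 : V)
      apply hv
      refine hρ _ hAn hAb' h2 v ?_
      rintro _ ⟨a, -, rfl⟩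
      have h3 : ρ (a : G) = 1 := a.2
      change ρ (a : G) v = v
      rw [h3]
      rfl
    exact closed_irr hp3 P hP hgen hyp ρ hirr hfaith
  · unfold Irr at hirr
    push Not at hirr
    obtain ⟨U, hU, hUb, hUt⟩ := hirr
    have h1 : 0 < finrank k U := by
      have : Nontrivial U := Submodule.nontrivial_iff_ne_bot.2 hUb
      exact finrank_pos
    have h2 := Submodule.finrank_quotient_add_finrank U
    have h3 : finrank k U < finrank k V := Submodule.finrank_lt hUt
    have hUnt : Nontrivial U := Submodule.nontrivial_iff_ne_bot.2 hUb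
    have hQnt : Nontrivial (V ⧸ U) := by
      apply Module.nontrivial_of_finrank_pos (R := k)
      omega
    have h4 := ih (finrank k U) (by omega) U (subRep ρ U hU) (hρ.sub U hU) rfl
    have h5 := ih (finrank k (V ⧸ U)) (by omega) (V ⧸ U) (quoRep ρ U hU) (hρ.quo U hU) rfl
    have h6 := finrank_fix_le ρ P U hU
    omega

end Cfsg.Agent.H457.Half
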