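import Mathlib

/-!
# The dimension of the commutant of a linear map (helper457)

`comm T` : the space of linear maps commuting with `T`.

* `sq_add_finrank_comm_le` : `b² + dim comm (T | range (T - λ)) ≤ dim comm T`, `b = dim ker (T - λ)`;
* `sq_finrank_le` : `n² ≤ q dim comm T` if `f(T) = 0` with `f` of degree `q`, over an algebraically closed field;
* `main` : if `T ^ p = 1`, then `(n - b)² ≤ (p - 1) (dim comm T - b²)`, `b = dim ker (T - 1)`.
-/

set_option autoImplicit false

namespace Cfsg.Agent.H457.Half

open Module Polynomial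

/-- the maps commuting with `T` -/
def comm {k V : Type*} [Field k] [AddCommGroup V] [Module k V] (T : V →ₗ[k] V) : Submodule k (V →ₗ[k] V) where
  carrier := {S | ∀ v, S (T v) = T (S v)}
  add_mem' := by
    intro a b ha hb v
    rw [LinearMap.add_apply, LinearMap.add_apply, ha v, hb v, map_add]
  zero_mem' := fun v => by simp
  smul_mem' := by
    intro c a ha v
    rw [LinearMap.smul_apply, LinearMap.smul_apply, ha v, map_smul]

theorem mem_comm {k V : Type*} [Field k] [AddCommGroup V] [Module k V] {T S : V →ₗ[k] V} :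
    S ∈ comm T ↔ ∀ v, S (T v) = T (S v) := Iff.rfl

variable {k : Type*} [Field k]

section step

variable {V : Type*} [AddCommGroup V] [Module k V]

/-- the restriction of `T` to the range of `T - c` -/
def restr (T : V →ₗ[k] V) (c : k) :
    LinearMap.range (T - c • LinearMap.id) →ₗ[k] LinearMap.range (T - c • LinearMap.id) :=
  T.restrict (p := LinearMap.range (T - c • LinearMap.id)) (q := LinearMap.range (T - c • LinearMap.id)) (by
    rintro _ ⟨v, rfl⟩
    refine ⟨T v, ?_⟩
    simp)

theorem restr_apply (T : V →ₗ[k] V) (c : k) (v : LinearMap.range (T - c • LinearMap.id)) :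
    ((restr T c v : LinearMap.range (T - c • LinearMap.id)) : V) = T v := rfl

/-- restriction of the commutant -/
def resComm (T : V →ₗ[k] V) (c : k) : comm T →ₗ[k] comm (restr T c) where
  toFun S := ⟨(S : V →ₗ[k] V).restrict (p := LinearMap.range (T - c • LinearMap.id))
      (q := LinearMap.range (T - c • LinearMap.id)) (by
        rintro _ ⟨v, rfl⟩
        refine ⟨(S : V →ₗ[k] V) v, ?_⟩
        have h := S.2 v
        simp only [LinearMap.sub_apply, LinearMap.smul_apply, LinearMap.id_apply, map_sub, map_smul]
        rw [h]), by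
    intro v
    apply Subtype.ext
    exact S.2 v⟩
  map_add' a b := by
    apply Subtype.ext
    ext v
    rfl
  map_smul' a b := by
    apply Subtype.ext
    ext v
    rfl

theorem resComm_surjective (T : V →ₗ[k] V) (c : k) : Function.Surjective (resComm T c) := by
  intro S₁
  set N : V →ₗ[k] V := T - c • LinearMap.id with hN
  set R : Submodule k V := LinearMap.range N with hR
  -- `S₁` commutes with `N`
  have hS₁ : ∀ w : R, N ((S₁ : R →ₗ[k] R) w : V) = ((S₁ : R →ₗ[k] R) ⟨N w, ⟨w, rfl⟩⟩ : V) := by
    intro w
    have h1 : (⟨N w, ⟨w, rfl⟩⟩ : R) = restr T c w - c • w := by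
      apply Subtype.ext
      change N w = T w - c • (w : V)
      rw [hN]; simp
    have h2 := S₁.2 w
    rw [h1, map_sub, map_smul, h2]
    change N _ = T _ - c • _
    rw [hN]; simp
  -- a section of `N`
  obtain ⟨s, hs⟩ := (LinearMap.exists_rightInverse_of_surjective N.rangeRestrict (LinearMap.range_rangeRestrict N))
  have hs' : ∀ w : R, N (s w) = w := fun w => congrArg Subtype.val (LinearMap.congr_fun hs w)
  -- `S₀`
  let S₀ : V →ₗ[k] V := s.comp ((S₁ : R →ₗ[k] R).comp N.rangeRestrict)
  have hS₀ : ∀ v, N (S₀ v) = ((S₁ : R →ₗ[k] R) (N.rangeRestrict v) : V) := fun v => hs' _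
  -- the defect
  let δ : R →ₗ[k] LinearMap.ker N :=
    { toFun := fun w => ⟨S₀ w - ((S₁ : R →ₗ[k] R) w : V), by
        rw [LinearMap.mem_ker, map_sub, hS₀, hS₁ w, sub_eq_zero]
        rfl⟩
      map_add' := by
        intro a b
        apply Subtype.ext
        change S₀ ((a : V) + b) - (((S₁ : R →ₗ[k] R) (a + b) : R) : V) = (S₀ a - _) + (S₀ b - _)
        rw [map_add, map_add]
        push_cast
        abel
      map_smul' := by
        intro r a
        apply Subtype.ext
        change S₀ (r • (a : V)) - (((S₁ : R →ₗ[k] R) (r • a) : R) : V) = r • (S₀ a - _)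
        rw [map_smul, map_smul]
        push_cast
        rw [smul_sub] }
  obtain ⟨δ', hδ'⟩ := LinearMap.exists_extend δ
  have hδ'' : ∀ w : R, ((δ' w : LinearMap.ker N) : V) = S₀ w - ((S₁ : R →ₗ[k] R) w : V) := fun w =>
    congrArg Subtype.val (LinearMap.congr_fun hδ' w)
  let S : V →ₗ[k] V := S₀ - (LinearMap.ker N).subtype.comp δ'
  have hSR : ∀ w : R, S w = ((S₁ : R →ₗ[k] R) w : V) := by
    intro w
    change S₀ w - ((δ' w : LinearMap.ker N) : V) = _
    rw [hδ'']
    abel
  have hNS : ∀ v, N (S v) = ((S₁ : R →ₗ[k] R) (N.rangeRestrict v) : V) := by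
    intro v
    change N (S₀ v - ((δ' v : LinearMap.ker N) : V)) = _
    rw [map_sub, LinearMap.mem_ker.1 (δ' v).2, sub_zero, hS₀]
  have hST : S ∈ comm T := by
    intro v
    have h1 : S (N v) = N (S v) := by
      rw [hNS v]
      exact hSR (N.rangeRestrict v)
    have h2 : ∀ u, T u = N u + c • u := by
      intro u
      rw [hN]; simp
    rw [h2 v, h2 (S v), map_add, map_smul, h1]
  refine ⟨⟨S, hST⟩, ?_⟩
  apply Subtype.ext
  ext w
  exact hSR w

theorem sq_finrank_ker_le [FiniteDimensional k V] (T : V →ₗ[k] V) (c : k) :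
    finrank k (LinearMap.ker (T - c • LinearMap.id)) ^ 2 ≤ finrank k (LinearMap.ker (resComm T c)) := by
  set N : V →ₗ[k] V := T - c • LinearMap.id with hN
  have hdim : finrank k (V ⧸ LinearMap.range N) = finrank k (LinearMap.ker N) := by
    have h1 := Submodule.finrank_quotient_add_finrank (LinearMap.range N)
    have h2 := LinearMap.finrank_range_add_finrank_ker N
    omega
  let Φ : ((V ⧸ LinearMap.range N) →ₗ[k] LinearMap.ker N) →ₗ[k] LinearMap.ker (resComm T c) :=
    { toFun := fun f => ⟨⟨(LinearMap.ker N).subtype.comp (f.comp (LinearMap.range N).mkQ), by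
        intro v
        have h2 : ∀ u, T u = N u + c • u := by
          intro u
          rw [hN]; simp
        change ((f ((LinearMap.range N).mkQ (T v)) : LinearMap.ker N) : V) =
          T ((f ((LinearMap.range N).mkQ v) : LinearMap.ker N) : V)
        rw [h2 v, map_add, h2 (f _ : V), LinearMap.mem_ker.1 (f _).2, zero_add, map_smul]
        have h3 : (LinearMap.range N).mkQ (N v) = 0 := by
          rw [Submodule.mkQ_apply, Submodule.Quotient.mk_eq_zero]
          exact ⟨v, rfl⟩
        rw [h3, zero_add, map_smul]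
        rfl⟩, by
        rw [LinearMap.mem_ker]
        apply Subtype.ext
        ext w
        change ((f ((LinearMap.range N).mkQ w) : LinearMap.ker N) : V) = 0
        have h3 : (LinearMap.range N).mkQ (w : V) = 0 := by
          rw [Submodule.mkQ_apply, Submodule.Quotient.mk_eq_zero]
          exact w.2
        rw [h3, map_zero]
        rfl⟩
      map_add' := by
        intro a b
        apply Subtype.ext
        apply Subtype.ext
        ext v
        rfl
      map_smul' := by
        intro a b
        apply Subtype.ext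
        apply Subtype.ext
        ext v
        rfl }
  have hΦ : Function.Injective Φ := by
    intro f g hfg
    apply LinearMap.ext
    intro q
    obtain ⟨v, rfl⟩ := (LinearMap.range N).mkQ_surjective q
    apply Subtype.ext
    have h1 := congrArg (fun z : LinearMap.ker (resComm T c) => ((z : comm T) : V →ₗ[k] V) v) hfg
    exact h1
  have h1 := LinearMap.finrank_le_finrank_of_injective hΦ
  rw [Module.finrank_linearMap, hdim] at h1
  rw [pow_two]
  exact h1

/-- **the inductive step** -/
theorem sq_add_finrank_comm_le [FiniteDimensional k V] (T : V →ₗ[k] V) (c : k) :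
    finrank k (LinearMap.ker (T - c • LinearMap.id)) ^ 2 + finrank k (comm (restr T c)) ≤ finrank k (comm T) := by
  have h1 := LinearMap.finrank_range_add_finrank_ker (K := k) (V := comm T) (V₂ := comm (restr T c)) (resComm T c)
  have h2 : finrank k (LinearMap.range (resComm T c)) = finrank k (comm (restr T c)) := by
    rw [LinearMap.range_eq_top.2 (resComm_surjective T c), finrank_top]
  have h3 := sq_finrank_ker_le T c
  omega

end step

theorem arith {q c c₁ b m : ℕ} (h1 : b ^ 2 + c₁ ≤ c) (h2 : m ^ 2 ≤ q * c₁) : (b + m) ^ 2 ≤ (q + 1) * c := by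
  rcases Nat.eq_zero_or_pos q with rfl | hq
  · have hm : m = 0 := by
      have : m ^ 2 ≤ 0 := by simpa using h2
      exact pow_eq_zero_iff (two_ne_zero) |>.1 (Nat.le_zero.1 this)
    subst hm
    simp only [add_zero, zero_add, one_mul]
    omega
  · zify at *
    have hq' : (0 : ℤ) < q := by exact_mod_cast hq
    have h3 : (2 * b * m : ℤ) ≤ q * b ^ 2 + c₁ := by
      have h4 : (q : ℤ) * (2 * b * m) ≤ q * (q * b ^ 2 + c₁) := by nlinarith [sq_nonneg ((q : ℤ) * b - m)]
      exact le_of_mul_le_mul_left h4 hq'
    nlinarith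

/-- the factor `g` of `X ^ p - 1 = (X - 1) g` kills the restriction -/
theorem aeval_restr_eq_zero {V : Type*} [AddCommGroup V] [Module k V] (T : V →ₗ[k] V) (a : k) (g : k[X])
    (hT : aeval T ((X - C a) * g) = 0) : aeval (restr T a) g = 0 := by
  ext w
  obtain ⟨v, hv⟩ := w.2
  have h1 : ∀ h : k[X], ((aeval (restr T a) h w : LinearMap.range (T - a • LinearMap.id)) : V) = aeval T h w := by
    intro h
    induction h using Polynomial.induction_on' with
    | add p q hp hq =>
      rw [map_add, map_add, LinearMap.add_apply, LinearMap.add_apply, ← hp, ← hq]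
      rfl
    | monomial n r =>
      rw [aeval_monomial, aeval_monomial, Module.End.mul_apply, Module.End.mul_apply,
        Module.algebraMap_end_apply, Module.algebraMap_end_apply]
      push_cast
      congr 1
      clear hv hT
      induction n with
      | zero => simp
      | succ n ihn =>
        rw [pow_succ', pow_succ', Module.End.mul_apply, Module.End.mul_apply, restr_apply, ihn]
  rw [h1, LinearMap.zero_apply]
  have h2 := LinearMap.congr_fun hT v
  rw [mul_comm, map_mul, Module.End.mul_apply, LinearMap.zero_apply] at h2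
  have h3 : aeval T (X - C a) v = w := by
    rw [← hv, map_sub, aeval_X, aeval_C]
    rfl
  rw [h3] at h2
  rw [h2]
  rfl

/-- `n² ≤ q dim comm T` if `f(T) = 0`, `deg f = q` -/
theorem sq_finrank_le [IsAlgClosed k] (q : ℕ) : ∀ (V : Type*) [AddCommGroup V] [Module k V] [FiniteDimensional k V]
    (T : V →ₗ[k] V) (f : k[X]), f ≠ 0 → f.natDegree = q → aeval T f = 0 →
      finrank k V ^ 2 ≤ q * finrank k (comm T) := by
  induction q with
  | zero =>
    intro V _ _ _ T f hf hd hT
    rw [Polynomial.natDegree_eq_zero] at hd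
    obtain ⟨a, rfl⟩ := hd
    have ha : a ≠ 0 := by
      rintro rfl
      exact hf (by simp)
    rw [aeval_C] at hT
    have h1 : Subsingleton V := by
      refine subsingleton_of_forall_eq 0 fun v => ?_
      have h2 := LinearMap.congr_fun hT v
      rw [Module.algebraMap_end_apply, LinearMap.zero_apply, smul_eq_zero] at h2
      exact h2.resolve_left ha
    rw [finrank_zero_of_subsingleton]
    simp
  | succ q ih =>
    intro V _ _ _ T f hf hd hT
    obtain ⟨a, ha⟩ := IsAlgClosed.exists_root f (by
      intro h
      rw [Polynomial.degree_eq_natDegree hf, hd] at h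
      exact absurd h (by exact_mod_cast Nat.succ_ne_zero q))
    obtain ⟨g, rfl⟩ := Polynomial.dvd_iff_isRoot.2 ha
    have hg : g ≠ 0 := right_ne_zero_of_mul hf
    have hgd : g.natDegree = q := by
      rw [Polynomial.natDegree_mul (X_sub_C_ne_zero a) hg, natDegree_X_sub_C] at hd
      omega
    have h1 := ih (LinearMap.range (T - a • LinearMap.id)) (restr T a) g hg hgd (aeval_restr_eq_zero T a g hT)
    have h2 := sq_add_finrank_comm_le T a
    have h3 := LinearMap.finrank_range_add_finrank_ker (T - a • LinearMap.id)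
    have h4 := arith h2 h1
    rw [← h3, add_comm]
    exact h4

/-- **The commutant of a linear map of order `p`.** -/
theorem main [IsAlgClosed k] {V : Type*} [AddCommGroup V] [Module k V] [FiniteDimensional k V] (T : V →ₗ[k] V)
    {p : ℕ} (hp : 0 < p) (hT : T ^ p = 1) {b : ℕ} (hb : finrank k (LinearMap.ker (T - LinearMap.id)) = b) :
    b ≤ finrank k V ∧ b ^ 2 * (p - 1) + (finrank k V - b) ^ 2 ≤ (p - 1) * finrank k (comm T) := by
  have hone : (1 : k) • (LinearMap.id : V →ₗ[k] V) = LinearMap.id := one_smul _ _
  have hb' : finrank k (LinearMap.ker (T - (1 : k) • LinearMap.id)) = b := by rw [hone, hb]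
  have h2 := sq_add_finrank_comm_le T 1
  have h3 := LinearMap.finrank_range_add_finrank_ker (T - (1 : k) • LinearMap.id)
  -- the cofactor
  have hroot : (X ^ p - 1 : k[X]).IsRoot 1 := by simp
  obtain ⟨g, hg⟩ := Polynomial.dvd_iff_isRoot.2 hroot
  have hne : (X ^ p - 1 : k[X]) ≠ 0 := by
    rw [← C_1]
    exact X_pow_sub_C_ne_zero hp 1
  have hdeg : (X ^ p - 1 : k[X]).natDegree = p := by
    rw [← C_1]
    exact natDegree_X_pow_sub_C
  have hg0 : g ≠ 0 := by
    rintro rfl
    rw [mul_zero] at hg
    exact hne hg
  have hgd : g.natDegree = p - 1 := by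
    have h := hdeg
    rw [hg, Polynomial.natDegree_mul (X_sub_C_ne_zero 1) hg0, natDegree_X_sub_C] at h
    omega
  have h1 : finrank k (LinearMap.range (T - (1 : k) • LinearMap.id)) ^ 2 ≤ (p - 1) * finrank k (comm (restr T 1)) := by
    refine sq_finrank_le (p - 1) _ (restr T 1) g hg0 hgd (aeval_restr_eq_zero T 1 g ?_)
    rw [← hg, map_sub, map_pow, aeval_X, map_one, hT, sub_self]
  rw [hb'] at h2 h3
  refine ⟨by omega, ?_⟩
  have h4 : finrank k V - b = finrank k (LinearMap.range (T - (1 : k) • LinearMap.id)) := by omega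
  rw [h4]
  calc b ^ 2 * (p - 1) + finrank k (LinearMap.range (T - (1 : k) • LinearMap.id)) ^ 2
      ≤ b ^ 2 * (p - 1) + (p - 1) * finrank k (comm (restr T 1)) := Nat.add_le_add_left h1 _
    _ = (p - 1) * (b ^ 2 + finrank k (comm (restr T 1))) := by ring
    _ ≤ _ := Nat.mul_le_mul_left _ h2

end Cfsg.Agent.H457.Half
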