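import Cfsg.Agent.H457.Half.Base
import Cfsg.Agent.OddOrderLocal.FrobAct

/-!
# The sections of order a power of `p` (helper457)

Induction on the order of the group for the hypothesis `HypP`.
-/

set_option autoImplicit false

namespace Cfsg.Agent.H457.Half

open Module Subgroup Cfsg.Agent

universe u

/-- the claim for faithful actions of groups of order `n` on elementary abelian `p`-groups -/
def Small (p n : ℕ) : Prop :=
  ∀ (A : Type u) [Group A] [Finite A] [Group.IsSolvable A] (V : Type u) [CommGroup V] [Finite V] [Nontrivial V]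
    (P : Subgroup A) (γ : A →* MulAut V), Nat.card A = n → Nat.card P = p → normalClosure (P : Set A) = ⊤ →
    (∀ v : V, v ^ p = 1) → Function.Injective γ →
    (∀ W : Subgroup V, (∀ a, ∀ w ∈ W, γ a w ∈ W) → W = ⊥ ∨ W = ⊤) →
    Nat.card {v : V // ∀ x ∈ P, γ x v = v} ^ 2 < Nat.card V

theorem irr_toRep {A V : Type*} [Group A] [CommGroup V] (q : ℕ) [Fact q.Prime]
    [Module (ZMod q) (Additive V)]
    (γ : A →* MulAut V) (hirr : ∀ W : Subgroup V, (∀ a, ∀ w ∈ W, γ a w ∈ W) → W = ⊥ ∨ W = ⊤) :
    Irr (OddOrderLocal.FrobAct.toRep q γ) := by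
  intro U hU
  let W : Subgroup V := AddSubgroup.toSubgroup' U.toAddSubgroup
  have hmem : ∀ v : V, v ∈ W ↔ Additive.ofMul v ∈ U := fun v => Iff.rfl
  rcases hirr W (fun a w hw => hU a _ ((hmem w).1 hw)) with h | h
  · left
    rw [eq_bot_iff]
    intro v hv
    have h1 : Additive.toMul v ∈ W := hv
    rw [h, Subgroup.mem_bot] at h1
    exact congrArg Additive.ofMul h1
  · right
    rw [eq_top_iff]
    intro v _
    have h1 : Additive.toMul v ∈ W := by rw [h]; exact Subgroup.mem_top _
    exact h1

theorem small_of_hypP {A V : Type*} [Group A] [Finite A] [Group.IsSolvable A] [CommGroup V] [Finite V]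
    [Nontrivial V] {p : ℕ} [hp : Fact p.Prime] (hp3 : 3 < p) (P : Subgroup A) (γ : A →* MulAut V)
    (hP : Nat.card P = p) (hgen : normalClosure (P : Set A) = ⊤) (hexp : ∀ v : V, v ^ p = 1)
    (hγ : Function.Injective γ)
    (hirr : ∀ W : Subgroup V, (∀ a, ∀ w ∈ W, γ a w ∈ W) → W = ⊥ ∨ W = ⊤) (hyp : HypP P p) :
    Nat.card {v : V // ∀ x ∈ P, γ x v = v} ^ 2 < Nat.card V := by
  have instM : Module (ZMod p) (Additive V) := AddCommGroup.zmodModule (n := p) (by
    intro x
    exact congrArg Additive.ofMul (hexp x.toMul))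
  have hfin : FiniteDimensional (ZMod p) (Additive V) := inferInstance
  have hinj : Function.Injective (OddOrderLocal.FrobAct.toRep p γ) := by
    intro a b hab
    apply hγ
    ext v
    exact congrArg Additive.toMul (LinearMap.congr_fun hab (Additive.ofMul v))
  have key := half hp3 P hP hgen hyp (OddOrderLocal.FrobAct.toRep p γ) (irr_toRep p γ hirr) hinj
  have hcardV : Nat.card V = p ^ finrank (ZMod p) (Additive V) := by
    have := Module.natCard_eq_pow_finrank (K := ZMod p) (V := Additive V)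
    rw [Nat.card_zmod] at this
    exact this
  set F : Submodule (ZMod p) (Additive V) := fix (OddOrderLocal.FrobAct.toRep p γ) P with hF
  have hcardF : Nat.card {v : V // ∀ x ∈ P, γ x v = v} = p ^ finrank (ZMod p) F := by
    have := Module.natCard_eq_pow_finrank (K := ZMod p) (V := F)
    rw [Nat.card_zmod] at this
    rw [← this]
    exact Nat.card_congr
      { toFun := fun x => ⟨Additive.ofMul x.1, fun g hg => congrArg Additive.ofMul (x.2 g hg)⟩
        invFun := fun x => ⟨Additive.toMul x.1, fun g hg => congrArg Additive.toMul (x.2 g hg)⟩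
        left_inv := fun x => rfl
        right_inv := fun x => rfl }
  rw [hcardV, hcardF, ← pow_mul, mul_comm]
  exact Nat.pow_lt_pow_right hp.out.one_lt key

/-- the case of a nonfaithful action -/
theorem card_lt_of_small {A V : Type u} [Group A] [Finite A] [Group.IsSolvable A] [CommGroup V] [Finite V]
    [Nontrivial V] {p : ℕ} [hpp : Fact p.Prime] (hexp : ∀ v : V, v ^ p = 1) (γ : A →* MulAut V)
    (hirr : ∀ W : Subgroup V, (∀ a, ∀ w ∈ W, γ a w ∈ W) → W = ⊥ ∨ W = ⊤)
    (P : Subgroup A) (hP : Nat.card P = p)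
    (hgen : normalClosure (P : Set A) = ⊤) (hnt : ∃ x ∈ P, γ x ≠ 1) (hs : Small.{u} p (Nat.card γ.range)) :
    Nat.card {v : V // ∀ x ∈ P, γ x v = v} ^ 2 < Nat.card V := by
  let f : A →* γ.range := γ.rangeRestrict
  have hf : Function.Surjective f := γ.rangeRestrict_surjective
  have hsol : Group.IsSolvable γ.range := Group.isSolvable_of_surjective hf
  have hker : ∀ x ∈ P, f x = 1 → x = 1 := by
    -- `P` has prime order and acts nontrivially
    have h1 : P ⊓ f.ker = ⊥ := by
      obtain ⟨y, hy, hy1⟩ := hnt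
      by_contra hne
      have h2 : Nat.card ↥(P ⊓ f.ker) ∣ Nat.card P := card_dvd_of_le inf_le_left
      rw [hP] at h2
      rcases (Nat.dvd_prime hpp.out).1 h2 with h3 | h3
      · exact hne (Subgroup.card_eq_one.1 h3)
      · have h4 : P ⊓ f.ker = P := by
          apply Subgroup.eq_of_le_of_card_ge inf_le_left
          rw [h3, hP]
        have h5 : y ∈ f.ker := (Subgroup.mem_inf.1 (by rw [h4]; exact hy : y ∈ P ⊓ f.ker)).2
        rw [MonoidHom.mem_ker] at h5
        exact hy1 (congrArg Subtype.val h5)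
    intro x hx hx1
    have : x ∈ P ⊓ f.ker := ⟨hx, hx1⟩
    rw [h1] at this
    exact Subgroup.mem_bot.1 this
  have hPc : Nat.card (P.map f) = p := by
    rw [← hP]
    refine (Nat.card_congr (Equiv.ofBijective (f.subgroupMap P) ⟨?_, f.subgroupMap_surjective P⟩)).symm
    rw [injective_iff_map_eq_one]
    intro x hx
    apply Subtype.ext
    exact hker x x.2 (congrArg Subtype.val hx)
  have hgen' : normalClosure ((P.map f : Subgroup γ.range) : Set γ.range) = ⊤ := by
    rw [Subgroup.coe_map, ← Subgroup.map_normalClosure _ f hf, hgen, ← MonoidHom.range_eq_map]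
    exact MonoidHom.range_eq_top.2 hf
  have key := hs γ.range V (P.map f) γ.range.subtype rfl hPc hgen' hexp γ.range.subtype_injective
    (fun W hW => hirr W (fun a w hw => hW (f a) w hw))
  have e : Nat.card {v : V // ∀ x ∈ P.map f, γ.range.subtype x v = v} = Nat.card {v : V // ∀ x ∈ P, γ x v = v} := by
    refine Nat.card_congr (Equiv.subtypeEquivRight ?_)
    intro v
    constructor
    · intro h x hx
      exact h (f x) ⟨x, hx, rfl⟩
    · rintro h _ ⟨x, hx, rfl⟩
      exact h x hx
  rw [← e]
  exact key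

/-- **the bound for `p`-sections**, from the claim for smaller groups -/
theorem hypP_of_small {G : Type u} [Group G] [Finite G] [Group.IsSolvable G] {p : ℕ} [hp : Fact p.Prime]
    (P : Subgroup G) (hP : Nat.card P = p) (hgen : normalClosure (P : Set G) = ⊤)
    (hs : ∀ n < Nat.card G, Small.{u} p n) : HypP P p := by
  intro E hE y hyP hy
  obtain ⟨hyo, hyz, hgy⟩ := orderOf_of_card hP hgen hyP hy
  have hEn := hE.normal
  have hZE := hE.center_le
  set π : G →* G ⧸ center G := QuotientGroup.mk' (center G) with hπd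
  have hπ : Function.Surjective π := QuotientGroup.mk'_surjective _
  have hker : π.ker = center G := QuotientGroup.ker_mk' _
  have hmemker : ∀ g, g ∈ center G ↔ π g = 1 := fun g => by rw [← MonoidHom.mem_ker, hker]
  have hVn : (E.map π).Normal := hEn.map _ hπ
  have hcomm : ∀ a ∈ E.map π, ∀ b ∈ E.map π, a * b = b * a := by
    rintro _ ⟨a, ha, rfl⟩ _ ⟨b, hb, rfl⟩
    have h1 := (hmemker _).1 (hE.comm a ha b hb)
    rw [map_mul, map_mul, map_mul, map_inv, map_inv, mul_inv_eq_one, mul_inv_eq_iff_eq_mul] at h1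
    exact h1
  let instC : CommGroup (E.map π) :=
    { (inferInstance : Group (E.map π)) with
      mul_comm := fun a b => Subtype.ext (hcomm a a.2 b b.2) }
  have hexp : ∀ v : E.map π, v ^ p = 1 := by
    rintro ⟨_, v, hv, rfl⟩
    apply Subtype.ext
    change (π v) ^ p = 1
    rw [← map_pow]
    exact (hmemker _).1 (hE.pow v hv)
  have hEb : E.map π ≠ ⊥ := by
    rw [Ne, Subgroup.map_eq_bot_iff, hker]
    exact hE.not_le
  have hVnt : Nontrivial (E.map π) := (Subgroup.nontrivial_iff_ne_bot _).2 hEb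
  let γ : G →* MulAut (E.map π) := (MulAut.conjNormal : (G ⧸ center G) →* MulAut (E.map π)).comp π
  have hγ : ∀ (g : G) (v : E.map π), ((γ g v : E.map π) : G ⧸ center G) = π g * v * (π g)⁻¹ := fun g v =>
    MulAut.conjNormal_apply (π g) v
  -- irreducibility
  have hirr : ∀ W : Subgroup (E.map π), (∀ a, ∀ w ∈ W, γ a w ∈ W) → W = ⊥ ∨ W = ⊤ := by
    intro W hW
    have hWn : (W.map (E.map π).subtype).Normal := by
      refine ⟨?_⟩
      rintro _ ⟨w, hw, rfl⟩ g
      obtain ⟨g, rfl⟩ := hπ g
      exact ⟨γ g w, hW g w hw, hγ g w⟩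
    have hNn : ((W.map (E.map π).subtype).comap π).Normal := hWn.comap π
    have h1 : center G ≤ (W.map (E.map π).subtype).comap π := hker.symm.le.trans (Subgroup.ker_le_comap _ _)
    have h2 : (W.map (E.map π).subtype).comap π ≤ E := by
      intro g hg
      obtain ⟨w, _, hw⟩ := hg
      obtain ⟨e, he, hee⟩ := w.2
      have h3 : π g = π e := by rw [hee]; exact hw.symm
      have h4 : g * e⁻¹ ∈ center G := by
        rw [hmemker, map_mul, map_inv, h3, mul_inv_cancel]
      have h5 : g = (g * e⁻¹) * e := by group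
      rw [h5]
      exact mul_mem (hZE h4) he
    rcases hE.min _ hNn h1 h2 with h | h
    · left
      rw [eq_bot_iff]
      intro w hw
      obtain ⟨e, he, hee⟩ := w.2
      have h3 : e ∈ (W.map (E.map π).subtype).comap π := ⟨w, hw, hee.symm⟩
      rw [h, hmemker, hee] at h3
      exact Subgroup.mem_bot.2 (Subtype.ext h3)
    · right
      rw [eq_top_iff]
      intro w _
      obtain ⟨e, he, hee⟩ := w.2
      have h3 : e ∈ (W.map (E.map π).subtype).comap π := by rw [h]; exact he
      obtain ⟨w', hw', hw''⟩ := h3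
      have h4 : w' = w := Subtype.ext (by rw [← hee]; exact hw'')
      rw [← h4]
      exact hw'
  -- `P` acts nontrivially
  have hnc := hE.not_le_centralizer hgy
  have hnt : ∃ x ∈ P, γ x ≠ 1 := by
    refine ⟨y, hyP, fun h1 => hnc ?_⟩
    intro x hx
    rw [mem_centralizer_singleton_iff]
    have h2 := hγ y ⟨x, hx⟩
    rw [h1] at h2
    change x = π y * x * (π y)⁻¹ at h2
    rw [eq_mul_inv_iff_mul_eq] at h2
    exact h2
  -- the image is smaller
  have hlt : Nat.card γ.range < Nat.card G := by
    rw [← Subgroup.index_ker, ← Subgroup.card_mul_index γ.ker]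
    have h1 : 1 < Nat.card γ.ker := by
      rw [Subgroup.one_lt_card_iff_ne_bot]
      intro h2
      apply hE.not_le
      have h3 : E ≤ γ.ker := by
        intro e he
        rw [MonoidHom.mem_ker]
        ext v
        rw [hγ e v, MulAut.one_apply, hcomm (π e) ⟨e, he, rfl⟩ v v.2, mul_inv_cancel_right]
      rw [h2] at h3
      exact h3.trans bot_le
    have h4 : 0 < γ.ker.index := Nat.pos_of_ne_zero Subgroup.index_ne_zero_of_finite
    exact lt_mul_of_one_lt_left h4 h1
  have key := card_lt_of_small hexp γ hirr P hP hgen hnt (hs _ hlt)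
  -- the fixed points
  have hDeq : (cen E y).map π = E.map π ⊓ centralizer ({π y} : Set (G ⧸ center G)) := by
    apply le_antisymm
    · rintro _ ⟨w, hw, rfl⟩
      rw [cen] at hw
      obtain ⟨h1, h2⟩ := mem_inf.1 hw
      exact mem_inf.2 ⟨⟨w, h1, rfl⟩, h2⟩
    · rintro _ hw
      obtain ⟨⟨w, h1, rfl⟩, h2⟩ := mem_inf.1 hw
      exact ⟨w, mem_inf.2 ⟨h1, h2⟩, rfl⟩
  have hfix : Nat.card {v : E.map π // ∀ x ∈ P, γ x v = v} = Nat.card ((cen E y).map π) := by
    rw [hDeq]
    have hmem : ∀ v : E.map π, (∀ x ∈ P, γ x v = v) ↔ (v : G ⧸ center G) ∈ centralizer ({π y} : Set (G ⧸ center G)) := by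
      intro v
      rw [mem_centralizer_singleton_iff]
      constructor
      · intro h
        have h1 := hγ y v
        rw [h y hyP, eq_mul_inv_iff_mul_eq] at h1
        exact h1
      · intro h x hx
        obtain ⟨n, rfl⟩ := mem_zpowers_iff.1 (hyz x hx)
        apply Subtype.ext
        rw [hγ, map_zpow]
        have h2 : Commute (π y) (v : G ⧸ center G) := h.symm
        rw [(h2.zpow_left n).eq, mul_inv_cancel_right]
    refine Nat.card_congr
      { toFun := fun v => ⟨v.1, mem_inf.2 ⟨v.1.2, (hmem v.1).1 v.2⟩⟩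
        invFun := fun v => ⟨⟨v.1, (mem_inf.1 v.2).1⟩, (hmem _).2 (mem_inf.1 v.2).2⟩
        left_inv := fun v => rfl
        right_inv := fun v => rfl }
  rw [hfix] at key
  -- the order of the image of `y`
  have hy' : orderOf (π y) = p := by
    have h1 : orderOf (π y) ∣ p := hyo ▸ orderOf_map_dvd _ y
    rcases (Nat.dvd_prime hp.out).1 h1 with h2 | h2
    · exfalso
      apply hnc
      rw [orderOf_eq_one_iff] at h2
      change E.map π ≤ centralizer ({π y} : Set (G ⧸ center G))
      rw [h2]
      intro x _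
      rw [mem_centralizer_singleton_iff, mul_one, one_mul]
    · exact h2
  have hmod := card_modEq_centralizer (A := E.map π) hy'
  rw [← hDeq] at hmod
  have hpg : IsPGroup p (E.map π) := fun v => ⟨1, by rw [pow_one]; exact hexp v⟩
  obtain ⟨n, hn⟩ := IsPGroup.iff_card.1 hpg
  have hle : (cen E y).map π ≤ E.map π := Subgroup.map_mono inf_le_left
  obtain ⟨m, hmn, hm⟩ := (Nat.dvd_prime_pow hp.out).1 (hn ▸ Subgroup.card_dvd_of_le hle)
  have hn0 : n ≠ 0 := by
    rintro rfl
    rw [pow_zero] at hn
    exact hEb (Subgroup.card_eq_one.1 hn)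
  have hm0 : m ≠ 0 := by
    rintro rfl
    rw [hm, hn, pow_zero] at hmod
    have h1 : p ^ n ≡ 0 [MOD p] := (Nat.modEq_zero_iff_dvd).2 (dvd_pow_self p hn0)
    have h2 : p ∣ 1 := (Nat.modEq_zero_iff_dvd).1 (hmod.symm.trans h1)
    exact hp.out.one_lt.ne' (Nat.dvd_one.1 h2)
  rw [hm, hn, ← pow_mul] at key
  have h2m : m * 2 < n := (Nat.pow_lt_pow_iff_right hp.out.one_lt).1 key
  have h3 : (p - 1) ^ 2 * p ^ m ≤ p ^ n := by
    calc (p - 1) ^ 2 * p ^ m ≤ p ^ 2 * p ^ m := Nat.mul_le_mul_right _ (Nat.pow_le_pow_left (Nat.sub_le _ _) 2)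
      _ = p ^ (2 + m) := (pow_add _ _ _).symm
      _ ≤ p ^ n := Nat.pow_le_pow_right hp.out.pos (by omega)
  have hZD : center G ≤ cen E y := by
    intro z hz
    rw [mem_cen]
    refine ⟨hZE hz, ?_⟩
    have e : y * z * y⁻¹ * z⁻¹ = 1 := by
      rw [mem_center_iff.1 hz y]; group
    rw [e]
    exact one_mem _
  rw [card_map_mk E hZE, card_map_mk (cen E y) hZD]
  change (p - 1) ^ 2 * (Nat.card (center G) * Nat.card ((cen E y).map π)) ≤ Nat.card (center G) * Nat.card (E.map π)
  rw [hm, hn]
  calc (p - 1) ^ 2 * (Nat.card (center G) * p ^ m) = Nat.card (center G) * ((p - 1) ^ 2 * p ^ m) := by ring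
    _ ≤ Nat.card (center G) * p ^ n := Nat.mul_le_mul_left _ h3

theorem small {p : ℕ} [hp : Fact p.Prime] (hp3 : 3 < p) : ∀ n, Small.{u} p n := by
  intro n
  induction n using Nat.strong_induction_on with
  | _ n ih =>
    intro A _ _ _ V _ _ _ P γ hA hP hgen hexp hγ hirr
    exact small_of_hypP hp3 P γ hP hgen hexp hγ hirr (hypP_of_small P hP hgen (fun m hm => ih m (hA ▸ hm)))

theorem hypP {G : Type*} [Group G] [Finite G] [Group.IsSolvable G] {p : ℕ} [hp : Fact p.Prime] (hp3 : 3 < p)
    (P : Subgroup G) (hP : Nat.card P = p) (hgen : normalClosure (P : Set G) = ⊤) : HypP P p :=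
  hypP_of_small P hP hgen (fun n _ => small hp3 n)

/-- **S3818**, with `Irr` and `fix`. -/
theorem main' {k G V : Type*} [Field k] [Group G] [Finite G] [Group.IsSolvable G]
    [AddCommGroup V] [Module k V] [FiniteDimensional k V] [Nontrivial V] {p : ℕ} [hp : Fact p.Prime] (hp3 : 3 < p)
    (P : Subgroup G) (hP : Nat.card P = p) (hgen : normalClosure (P : Set G) = ⊤)
    (ρ : Representation k G V) (hirr : Irr ρ) (hfaith : Function.Injective ρ) :
    2 * finrank k (fix ρ P) < finrank k V :=
  half hp3 P hP hgen (hypP hp3 P hP hgen) ρ hirr hfaith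

end Cfsg.Agent.H457.Half
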