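import Cfsg.Agent.H457.Half.Orbits
import Cfsg.Agent.H457.Half.FixRatio

/-!
# Fixed spaces: the imprimitive case (helper457)

`imprimitive` : `ρ` faithful irreducible over an algebraically closed field, `A` an abelian normal subgroup not contained
in the centre: `2 dim C_V(P) < dim V`.
-/

set_option autoImplicit false

namespace Cfsg.Agent.H457.Half

open Module Subgroup

section

variable {k G V : Type*} [Field k] [Group G] [AddCommGroup V] [Module k V]

/-- no invariant subspaces -/
def Irr (ρ : Representation k G V) : Prop :=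
  ∀ U : Submodule k V, (∀ g : G, ∀ u ∈ U, ρ g u ∈ U) → U = ⊥ ∨ U = ⊤

/-- the vectors fixed by a subgroup -/
def fix (ρ : Representation k G V) (P : Subgroup G) : Submodule k V where
  carrier := {v | ∀ y ∈ P, ρ y v = v}
  add_mem' := by
    intro a b ha hb y hy
    rw [map_add, ha y hy, hb y hy]
  zero_mem' := fun y _ => map_zero _
  smul_mem' := by
    intro c v hv y hy
    rw [map_smul, hv y hy]

theorem mem_fix {ρ : Representation k G V} {P : Subgroup G} {v : V} : v ∈ fix ρ P ↔ ∀ y ∈ P, ρ y v = v := Iff.rfl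

/-- commuting endomorphisms have a common eigenvector -/
theorem exists_common_eigenvector [IsAlgClosed k] [FiniteDimensional k V] [Nontrivial V] {A : Type*}
    (σ : A → V →ₗ[k] V) (hcomm : ∀ a b v, σ a (σ b v) = σ b (σ a v)) :
    ∃ (χ : A → k) (v : V), v ≠ 0 ∧ ∀ a, σ a v = χ a • v := by
  classical
  let S : Set (Submodule k V) := {U | U ≠ ⊥ ∧ ∀ a, ∀ u ∈ U, σ a u ∈ U}
  have hS : S.Nonempty := ⟨⊤, top_ne_bot, fun _ _ _ => trivial⟩
  have hwf : WellFounded ((· < ·) : Submodule k V → Submodule k V → Prop) := wellFounded_lt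
  set U := hwf.min S hS with hU
  have hUS : U ∈ S := hwf.min_mem S hS
  have hmin : ∀ U' ∈ S, ¬ U' < U := fun U' hU' => hwf.not_lt_min S hU'
  have hsc : ∀ a, ∃ μ : k, ∀ u ∈ U, σ a u = μ • u := by
    intro a
    have hnt : Nontrivial U := Submodule.nontrivial_iff_ne_bot.2 hUS.1
    let T : U →ₗ[k] U := (σ a).restrict (p := U) (q := U) (hUS.2 a)
    obtain ⟨μ, hμ⟩ := Module.End.exists_eigenvalue T
    obtain ⟨u, hu⟩ := hμ.exists_hasEigenvector
    have hTu : σ a (u : V) = μ • (u : V) := congrArg Subtype.val hu.apply_eq_smul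
    let U' : Submodule k V := U ⊓ LinearMap.ker (σ a - μ • LinearMap.id)
    have hmem : ∀ v, v ∈ U' ↔ v ∈ U ∧ σ a v = μ • v := by
      intro v
      rw [Submodule.mem_inf, LinearMap.mem_ker, LinearMap.sub_apply, LinearMap.smul_apply, LinearMap.id_apply,
        sub_eq_zero]
    have hU'S : U' ∈ S := by
      refine ⟨?_, ?_⟩
      · intro h
        have h1 : (u : V) ∈ U' := (hmem _).2 ⟨u.2, hTu⟩
        rw [h, Submodule.mem_bot] at h1
        exact hu.2 (Subtype.ext h1)
      · intro b v hv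
        rw [hmem] at hv ⊢
        exact ⟨hUS.2 b v hv.1, by rw [hcomm, hv.2, map_smul]⟩
    have hle : U' ≤ U := inf_le_left
    have heq : U' = U := by
      by_contra hne
      exact hmin U' hU'S (lt_of_le_of_ne hle hne)
    refine ⟨μ, fun v hv => ?_⟩
    rw [← heq] at hv
    exact ((hmem v).1 hv).2
  choose χ hχ using hsc
  obtain ⟨v, hv, hv0⟩ := (Submodule.ne_bot_iff U).1 hUS.1
  exact ⟨χ, v, hv0, fun a => hχ a v hv⟩

end

section

variable {k G : Type*} [Field k] [Group G]

/-- weights of the normal subgroup `A` -/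
def Wt (A : Subgroup G) (k : Type*) : Type _ := A → k

instance (A : Subgroup G) [A.Normal] : MulAction G (Wt A k) where
  smul g χ := fun a => χ (MulAut.conjNormal g⁻¹ a)
  one_smul χ := by
    funext a
    change χ (MulAut.conjNormal (1 : G)⁻¹ a) = χ a
    rw [inv_one, map_one]
    rfl
  mul_smul g h χ := by
    funext a
    change χ (MulAut.conjNormal (g * h)⁻¹ a) = χ (MulAut.conjNormal h⁻¹ (MulAut.conjNormal g⁻¹ a))
    rw [mul_inv_rev, map_mul]
    rfl

theorem wt_smul (A : Subgroup G) [A.Normal] (g : G) (χ : Wt A k) (a : A) :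
    (g • χ) a = χ (MulAut.conjNormal g⁻¹ a) := rfl

variable {V : Type*} [AddCommGroup V] [Module k V]

/-- weight spaces -/
def wsp (ρ : Representation k G V) (A : Subgroup G) (χ : Wt A k) : Submodule k V where
  carrier := {v | ∀ a : A, ρ a v = χ a • v}
  add_mem' := by
    intro u v hu hv a
    rw [map_add, hu a, hv a, smul_add]
  zero_mem' := fun a => by rw [map_zero, smul_zero]
  smul_mem' := by
    intro c v hv a
    rw [map_smul, hv a, smul_comm]

theorem mem_wsp {ρ : Representation k G V} {A : Subgroup G} {χ : Wt A k} {v : V} :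
    v ∈ wsp ρ A χ ↔ ∀ a : A, ρ a v = χ a • v := Iff.rfl

theorem smul_mem_wsp (ρ : Representation k G V) (A : Subgroup G) [A.Normal] (g : G) {χ : Wt A k} {v : V}
    (hv : v ∈ wsp ρ A χ) : ρ g v ∈ wsp ρ A (g • χ) := by
  intro a
  have h1 : (a : G) * g = g * (MulAut.conjNormal g⁻¹ a : A) := by
    rw [MulAut.conjNormal_apply]; group
  rw [← Module.End.mul_apply, ← map_mul, h1, map_mul, Module.End.mul_apply, hv, map_smul, wt_smul]

theorem iSupIndep_wsp' (ρ : Representation k G V) (A : Subgroup G) (hab : ∀ a ∈ A, ∀ b ∈ A, ρ a * ρ b = ρ b * ρ a) :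
    iSupIndep (wsp ρ A) := by
  have h := Module.End.independent_iInf_maxGenEigenspace_of_forall_mapsTo (fun a : A => (ρ a : Module.End k V))
    (by
      intro a b φ
      refine Module.End.mapsTo_maxGenEigenspace_of_comm ?_ φ
      exact hab b b.2 a a.2)
  refine h.mono fun χ => ?_
  intro v hv
  rw [Submodule.mem_iInf]
  intro a
  refine (Module.End.eigenspace_le_maxGenEigenspace (f := (ρ a : Module.End k V))) ?_
  rw [Module.End.mem_eigenspace_iff]
  exact hv a

theorem iSupIndep_wsp (ρ : Representation k G V) (A : Subgroup G) (hab : ∀ a ∈ A, ∀ b ∈ A, a * b = b * a) :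
    iSupIndep (wsp ρ A) :=
  iSupIndep_wsp' ρ A fun a ha b hb => by rw [← map_mul, ← map_mul, hab a ha b hb]

end

/-- nontrivial elements of a subgroup of prime order -/
theorem orderOf_of_card {G : Type*} [Group G] {p : ℕ} [hp : Fact p.Prime] {P : Subgroup G} (hP : Nat.card P = p)
    (hgen : normalClosure (P : Set G) = ⊤) {y : G} (hyP : y ∈ P) (hy : y ≠ 1) :
    orderOf y = p ∧ (∀ x ∈ P, x ∈ zpowers y) ∧ normalClosure ({y} : Set G) = ⊤ := by
  have hPf : Finite P := Nat.finite_of_card_ne_zero (by rw [hP]; exact hp.out.ne_zero)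
  have h1 : orderOf (⟨y, hyP⟩ : P) = p := by
    have h2 : orderOf (⟨y, hyP⟩ : P) ∣ p := hP ▸ orderOf_dvd_natCard _
    exact ((Nat.dvd_prime hp.out).1 h2).resolve_left
      (fun h => hy (congrArg Subtype.val (orderOf_eq_one_iff.1 h)))
  have h2 : zpowers (⟨y, hyP⟩ : P) = ⊤ := by
    rw [← Subgroup.card_eq_iff_eq_top, Nat.card_zpowers, h1, hP]
  have h3 : ∀ x ∈ P, x ∈ zpowers y := by
    intro x hx
    have h4 : (⟨x, hx⟩ : P) ∈ zpowers (⟨y, hyP⟩ : P) := by rw [h2]; trivial
    obtain ⟨n, hn⟩ := mem_zpowers_iff.1 h4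
    rw [mem_zpowers_iff]
    exact ⟨n, congrArg Subtype.val hn⟩
  rw [Subgroup.orderOf_mk] at h1
  refine ⟨h1, h3, ?_⟩
  rw [eq_top_iff, ← hgen]
  have h5 : zpowers y ≤ normalClosure ({y} : Set G) := by
    rw [Subgroup.zpowers_le]
    exact Subgroup.subset_normalClosure (Set.mem_singleton y)
  exact Subgroup.normalClosure_le_normal (fun x hx => h5 (h3 x hx))

/-- **The imprimitive case.** -/
theorem imprimitive {k G V : Type*} [Field k] [IsAlgClosed k] [Group G] [Finite G] [Group.IsSolvable G]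
    [AddCommGroup V] [Module k V] [FiniteDimensional k V] [Nontrivial V] {p : ℕ} [hp : Fact p.Prime] (hp3 : 3 < p)
    (P : Subgroup G) (hP : Nat.card P = p) (hgen : normalClosure (P : Set G) = ⊤)
    (ρ : Representation k G V) (hirr : Irr ρ) (hfaith : Function.Injective ρ)
    (A : Subgroup G) [A.Normal] (hab : ∀ a ∈ A, ∀ b ∈ A, a * b = b * a) (hnc : ¬ A ≤ center G) :
    2 * finrank k (fix ρ P) < finrank k V := by
  classical
  obtain ⟨χ₀, v₀, hv₀, hχ₀⟩ := exists_common_eigenvector (fun a : A => ρ a) (by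
    intro a b v
    rw [← Module.End.mul_apply, ← Module.End.mul_apply, ← map_mul, ← map_mul, hab a a.2 b b.2])
  let χ : Wt A k := χ₀
  let Ω := MulAction.orbit G χ
  have hΩf : Finite Ω := (Set.finite_range (fun g : G => g • χ)).to_subtype
  have hΩF : Fintype Ω := Fintype.ofFinite _
  let W : Ω → Submodule k V := fun i => wsp ρ A i
  have hind : iSupIndep W := (iSupIndep_wsp ρ A hab).comp Subtype.val_injective
  have hinv : ∀ (g : G) (i : Ω), ∀ v ∈ W i, ρ g v ∈ W (g • i) := fun g i v hv => smul_mem_wsp ρ A g hv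
  have htop : ⨆ i, W i = ⊤ := by
    rcases hirr (⨆ i, W i) (by
      intro g u hu
      have h1 : (⨆ i, W i) ≤ (⨆ i, W i).comap (ρ g) := by
        refine iSup_le fun i v hv => ?_
        exact (le_iSup W (g • i)) (hinv g i v hv)
      exact h1 hu) with h | h
    · exfalso
      have h1 : v₀ ∈ ⨆ i, W i := (le_iSup W ⟨χ, MulAction.mem_orbit_self χ⟩) hχ₀
      rw [h, Submodule.mem_bot] at h1
      exact hv₀ h1
    · exact h
  -- equal dimensions
  have hdim : ∀ (g : G) (i : Ω), finrank k (W i) ≤ finrank k (W (g • i)) := by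
    intro g i
    let L : W i →ₗ[k] W (g • i) := (ρ g).restrict (p := W i) (q := W (g • i)) (hinv g i)
    refine LinearMap.finrank_le_finrank_of_injective (f := L) ?_
    intro u v huv
    apply Subtype.ext
    have h1 : ρ g u = ρ g v := congrArg Subtype.val huv
    have h2 := congrArg (ρ g⁻¹) h1
    rw [← Module.End.mul_apply, ← Module.End.mul_apply, ← map_mul, inv_mul_cancel, map_one] at h2
    exact h2
  have hd : ∀ i : Ω, finrank k (W i) = finrank k (W ⟨χ, MulAction.mem_orbit_self χ⟩) := by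
    intro i
    obtain ⟨g, hg⟩ := MulAction.exists_smul_eq G (⟨χ, MulAction.mem_orbit_self χ⟩ : Ω) i
    apply le_antisymm
    · have h1 := hdim g⁻¹ i
      rw [← hg, inv_smul_smul] at h1
      rwa [← hg]
    · have h1 := hdim g ⟨χ, MulAction.mem_orbit_self χ⟩
      rwa [hg] at h1
  set d := finrank k (W ⟨χ, MulAction.mem_orbit_self χ⟩) with hd'
  -- more than one weight
  have hΩ1 : 1 < Nat.card Ω := by
    by_contra hc
    have h1 : Nat.card Ω = 1 := by
      have : 0 < Nat.card Ω := Nat.card_pos_iff.2 ⟨⟨⟨χ, MulAction.mem_orbit_self χ⟩⟩, hΩf⟩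
      omega
    have hss : Subsingleton Ω := (Nat.card_eq_one_iff_unique.1 h1).1
    have h2 : W ⟨χ, MulAction.mem_orbit_self χ⟩ = ⊤ := by
      rw [eq_top_iff, ← htop]
      exact iSup_le fun i => (by rw [Subsingleton.elim i ⟨χ, MulAction.mem_orbit_self χ⟩])
    apply hnc
    intro a ha
    rw [mem_center_iff]
    intro g
    apply hfaith
    rw [map_mul, map_mul]
    apply LinearMap.ext
    intro v
    have h3 : ∀ v : V, ρ a v = χ ⟨a, ha⟩ • v := by
      intro v
      have h4 : v ∈ W ⟨χ, MulAction.mem_orbit_self χ⟩ := by rw [h2]; trivial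
      exact h4 ⟨a, ha⟩
    rw [Module.End.mul_apply, Module.End.mul_apply, h3, h3, map_smul]
  -- fixed points
  have hf : ∀ y : P, y ≠ 1 → Nat.card (MulAction.fixedBy Ω y) ≤ Nat.card Ω / p := by
    intro y hy
    obtain ⟨h1, -, h2⟩ := orderOf_of_card hP hgen y.2 (fun h => hy (Subtype.ext h))
    have h3 := card_fixedBy_mul_le (Ω := Ω) hΩ1 h1 h2
    rw [Nat.le_div_iff_mul_le hp.out.pos, mul_comm]
    exact h3
  obtain ⟨h1, h2⟩ := finrank_fixed_mul_le' (P := P) W hind htop (fun y => ρ y) (fun y i m hm => hinv y i m hm)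
    (fix ρ P) (fun m hm y => hm y y.2) hd hP hp.out.pos hf
  have hn : 0 < finrank k V := finrank_pos
  have h3 : p * (Nat.card Ω / p) ≤ Nat.card Ω := Nat.mul_div_le _ _
  -- arithmetic
  set b := finrank k (fix ρ P)
  set n := finrank k V
  set N := Nat.card Ω
  set f := N / p
  by_contra hcon
  have h4 : n ≤ 2 * b := by omega
  have hp5 : 5 ≤ p := by
    by_contra hc
    have : p = 4 := by omega
    subst this
    exact absurd hp.out (by norm_num)
  obtain ⟨e, rfl⟩ : ∃ e, p = e + 1 := ⟨p - 1, by omega⟩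
  have h5 : (N + e * f) * d * (e + 1) ≤ (N * (e + 1) + e * N) * d := by
    calc (N + e * f) * d * (e + 1) = (N * (e + 1) + e * ((e + 1) * f)) * d := by ring
      _ ≤ _ := Nat.mul_le_mul_right _ (Nat.add_le_add_left (Nat.mul_le_mul_left _ h3) _)
  have h6 : b * (e + 1) * (e + 1) ≤ (2 * e + 1) * n := by
    calc b * (e + 1) * (e + 1) ≤ (N + (e + 1 - 1) * f) * d * (e + 1) := Nat.mul_le_mul_right _ h1
      _ = (N + e * f) * d * (e + 1) := by rw [Nat.add_sub_cancel]
      _ ≤ (N * (e + 1) + e * N) * d := h5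
      _ = (2 * e + 1) * (N * d) := by ring
      _ ≤ _ := Nat.mul_le_mul_left _ h2
  have hb : 0 < b := by omega
  have h7 : b * ((e + 1) * (e + 1)) ≤ b * (2 * (2 * e + 1)) := by
    calc b * ((e + 1) * (e + 1)) = b * (e + 1) * (e + 1) := by ring
      _ ≤ (2 * e + 1) * n := h6
      _ ≤ (2 * e + 1) * (2 * b) := Nat.mul_le_mul_left _ h4
      _ = _ := by ring
  have h8 := Nat.le_of_mul_le_mul_left h7 hb
  have h9 : 4 ≤ e := by omega
  nlinarith

end Cfsg.Agent.H457.Half
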