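import Mathlib

/-!
# Fixed vectors and orbits on an index set (helper457)

`finrank_fixed_le` : a group `P` permutes a family of projections `π i` with sum `1`; the space of fixed vectors has
dimension at most `d` times the number of orbits of `P` on the index set.
-/

set_option autoImplicit false

namespace Cfsg.Agent.H457.Half

open Module

/-- the fixed vectors are determined by their components at representatives of the orbits -/
theorem finrank_fixed_le {k M ι P : Type*} [Field k] [AddCommGroup M] [Module k M] [FiniteDimensional k M]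
    [Fintype ι] [Group P] [MulAction P ι] (π : ι → M →ₗ[k] M) (hsum : ∀ m, ∑ i, π i m = m)
    (φ : P → M →ₗ[k] M) (hφ : ∀ y i m, φ y (π i m) = π (y • i) (φ y m))
    (F : Submodule k M) (hF : ∀ m ∈ F, ∀ y, φ y m = m) {d : ℕ} (hd : ∀ i, finrank k (LinearMap.range (π i)) ≤ d) :
    finrank k F ≤ Nat.card (Quotient (MulAction.orbitRel P ι)) * d := by
  classical
  have hfin : Fintype (Quotient (MulAction.orbitRel P ι)) := Fintype.ofFinite _
  let L : F →ₗ[k] (∀ q : Quotient (MulAction.orbitRel P ι), LinearMap.range (π q.out)) :=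
    LinearMap.pi fun q => (π q.out).rangeRestrict.comp F.subtype
  have hL : Function.Injective L := by
    rw [← LinearMap.ker_eq_bot, LinearMap.ker_eq_bot']
    intro m hm
    have h0 : ∀ q : Quotient (MulAction.orbitRel P ι), π q.out (m : M) = 0 := fun q =>
      congrArg Subtype.val (congrFun hm q)
    have h1 : ∀ i, π i (m : M) = 0 := by
      intro i
      have h2 : i ∈ MulAction.orbit P (Quotient.out (Quotient.mk'' i : Quotient (MulAction.orbitRel P ι))) := by
        have h3 : (Quotient.mk'' i : Quotient (MulAction.orbitRel P ι)) =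
            Quotient.mk'' (Quotient.out (Quotient.mk'' i : Quotient (MulAction.orbitRel P ι))) :=
          (Quotient.out_eq' _).symm
        exact (MulAction.orbitRel_apply).1 (Quotient.exact h3)
      obtain ⟨y, hy⟩ := h2
      have h4 : y • (Quotient.out (Quotient.mk'' i : Quotient (MulAction.orbitRel P ι))) = i := hy
      have h5 := hφ y (Quotient.out (Quotient.mk'' i : Quotient (MulAction.orbitRel P ι))) (m : M)
      rw [h0, map_zero, h4, hF m m.2 y] at h5
      exact h5.symm
    apply Subtype.ext
    rw [← hsum (m : M), Finset.sum_eq_zero (fun i _ => h1 i)]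
    rfl
  have h1 := LinearMap.finrank_le_finrank_of_injective hL
  refine h1.trans ?_
  rw [Module.finrank_pi_fintype]
  calc ∑ q : Quotient (MulAction.orbitRel P ι), finrank k (LinearMap.range (π q.out))
      ≤ ∑ _q : Quotient (MulAction.orbitRel P ι), d := Finset.sum_le_sum fun q _ => hd q.out
    _ = Nat.card (Quotient (MulAction.orbitRel P ι)) * d := by
        rw [Finset.sum_const, Finset.card_univ, smul_eq_mul, Nat.card_eq_fintype_card]

/-- counting orbits -/
theorem card_orbits_mul_le {ι P : Type*} [Finite ι] [Group P] [MulAction P ι] {p f : ℕ}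
    (hP : Nat.card P = p) (hp0 : 0 < p) (hf : ∀ y : P, y ≠ 1 → Nat.card (MulAction.fixedBy ι y) ≤ f) :
    Nat.card (Quotient (MulAction.orbitRel P ι)) * p ≤ Nat.card ι + (p - 1) * f := by
  classical
  have hPf : Finite P := Nat.finite_of_card_ne_zero (by omega)
  have h1 : Fintype P := Fintype.ofFinite P
  have h2 : ∀ a : P, Fintype (MulAction.fixedBy ι a) := fun a => Fintype.ofFinite _
  have h3 : Fintype (Quotient (MulAction.orbitRel P ι)) := Fintype.ofFinite _
  have h4 := MulAction.sum_card_fixedBy_eq_card_orbits_mul_card_group P ι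
  rw [Nat.card_eq_fintype_card, ← hP, Nat.card_eq_fintype_card (α := P), ← h4,
    ← Finset.add_sum_erase _ _ (Finset.mem_univ (1 : P))]
  apply Nat.add_le_add
  · rw [← Nat.card_eq_fintype_card]
    exact Nat.card_le_card_of_injective _ Subtype.val_injective
  · calc ∑ a ∈ Finset.univ.erase (1 : P), Fintype.card (MulAction.fixedBy ι a)
        ≤ ∑ _a ∈ Finset.univ.erase (1 : P), f := Finset.sum_le_sum fun a ha => by
          rw [← Nat.card_eq_fintype_card]
          exact hf a (Finset.ne_of_mem_erase ha)
      _ = (Fintype.card P - 1) * f := by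
          rw [Finset.sum_const, Finset.card_erase_of_mem (Finset.mem_univ _), Finset.card_univ, smul_eq_mul]

/-- **the bound** -/
theorem finrank_fixed_mul_le {k M ι P : Type*} [Field k] [AddCommGroup M] [Module k M] [FiniteDimensional k M]
    [Fintype ι] [Group P] [MulAction P ι] (π : ι → M →ₗ[k] M) (hsum : ∀ m, ∑ i, π i m = m)
    (φ : P → M →ₗ[k] M) (hφ : ∀ y i m, φ y (π i m) = π (y • i) (φ y m))
    (F : Submodule k M) (hF : ∀ m ∈ F, ∀ y, φ y m = m) {d : ℕ} (hd : ∀ i, finrank k (LinearMap.range (π i)) ≤ d)
    {p f : ℕ} (hP : Nat.card P = p) (hp0 : 0 < p) (hf : ∀ y : P, y ≠ 1 → Nat.card (MulAction.fixedBy ι y) ≤ f) :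
    finrank k F * p ≤ (Nat.card ι + (p - 1) * f) * d := by
  have h1 := finrank_fixed_le π hsum φ hφ F hF hd
  have h2 := card_orbits_mul_le (ι := ι) hP hp0 hf
  calc finrank k F * p ≤ (Nat.card (Quotient (MulAction.orbitRel P ι)) * d) * p := Nat.mul_le_mul_right p h1
    _ = (Nat.card (Quotient (MulAction.orbitRel P ι)) * p) * d := by ring
    _ ≤ _ := Nat.mul_le_mul_right d h2

/-- orthogonal projections: the dimensions of the ranges add up to at most the dimension -/
theorem sum_finrank_range_le {k M ι : Type*} [Field k] [AddCommGroup M] [Module k M] [FiniteDimensional k M]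
    [Fintype ι] (π : ι → M →ₗ[k] M) (horth : ∀ i j m, i ≠ j → π i (π j m) = 0)
    (hidem : ∀ i m, π i (π i m) = π i m) : ∑ i, finrank k (LinearMap.range (π i)) ≤ finrank k M := by
  classical
  let L : (∀ i : ι, LinearMap.range (π i)) →ₗ[k] M :=
    ∑ i, (LinearMap.range (π i)).subtype.comp (LinearMap.proj i)
  have happ : ∀ v, L v = ∑ i, (v i : M) := by
    intro v
    simp [L, LinearMap.sum_apply]
  have hL : Function.Injective L := by
    rw [← LinearMap.ker_eq_bot, LinearMap.ker_eq_bot']
    intro v hv
    rw [happ] at hv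
    funext j
    apply Subtype.ext
    have h1 := congrArg (π j) hv
    rw [map_sum, map_zero, Finset.sum_eq_single j] at h1
    · obtain ⟨m, hm⟩ := (v j).2
      rw [← hm, hidem, hm] at h1
      exact h1
    · intro i _ hij
      obtain ⟨m, hm⟩ := (v i).2
      rw [← hm]
      exact horth j i m (Ne.symm hij)
    · intro h
      exact absurd (Finset.mem_univ j) h
  have h1 := LinearMap.finrank_le_finrank_of_injective hL
  rwa [Module.finrank_pi_fintype] at h1

/-- the projections of a direct sum decomposition -/
theorem exists_proj {k M ι : Type*} [Field k] [AddCommGroup M] [Module k M] [Fintype ι] [DecidableEq ι]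
    (W : ι → Submodule k M) (h : DirectSum.IsInternal W) :
    ∃ π : ι → M →ₗ[k] M, (∀ m, ∑ i, π i m = m) ∧ (∀ i m, π i m ∈ W i) ∧ (∀ i, ∀ m ∈ W i, π i m = m) ∧
      ∀ i j, i ≠ j → ∀ m ∈ W j, π i m = 0 := by
  let e : (DirectSum ι fun i => W i) ≃ₗ[k] M := LinearEquiv.ofBijective (DirectSum.coeLinearMap W) h
  have he : ∀ x, e x = DirectSum.coeLinearMap W x := fun x => rfl
  have hesymm : ∀ i (m : W i), e.symm m = DirectSum.lof k ι (fun i => W i) i m := by
    intro i m
    rw [LinearEquiv.symm_apply_eq, he, DirectSum.coeLinearMap_lof]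
  refine ⟨fun i => (W i).subtype.comp ((DirectSum.component k ι (fun i => W i) i).comp e.symm.toLinearMap),
    ?_, ?_, ?_, ?_⟩
  · intro m
    obtain ⟨x, rfl⟩ := e.surjective m
    simp only [LinearMap.comp_apply, LinearEquiv.coe_coe, LinearEquiv.symm_apply_apply, Submodule.subtype_apply]
    rw [he]
    induction x using DirectSum.induction_on with
    | zero => simp
    | of i w =>
      rw [show (DirectSum.of (fun i => W i) i) w = DirectSum.lof k ι (fun i => W i) i w from rfl,
        DirectSum.coeLinearMap_lof, Finset.sum_eq_single i]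
      · rw [DirectSum.component.lof_self]
      · intro j _ hj
        rw [DirectSum.component.of, dif_neg (Ne.symm hj)]
        rfl
      · intro h
        exact absurd (Finset.mem_univ i) h
    | add x y hx hy =>
      rw [map_add, ← hx, ← hy, ← Finset.sum_add_distrib]
      refine Finset.sum_congr rfl fun i _ => ?_
      rw [map_add]
      rfl
  · intro i m
    exact ((DirectSum.component k ι (fun i => W i) i) (e.symm m)).2
  · intro i m hm
    simp only [LinearMap.comp_apply, LinearEquiv.coe_coe, Submodule.subtype_apply]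
    rw [show m = ((⟨m, hm⟩ : W i) : M) from rfl, hesymm, DirectSum.component.lof_self]
  · intro i j hij m hm
    simp only [LinearMap.comp_apply, LinearEquiv.coe_coe, Submodule.subtype_apply]
    rw [show m = ((⟨m, hm⟩ : W j) : M) from rfl, hesymm, DirectSum.component.of, dif_neg (Ne.symm hij)]
    rfl

/-- **The bound for a direct sum decomposition.** -/
theorem finrank_fixed_mul_le' {k M ι P : Type*} [Field k] [AddCommGroup M] [Module k M] [FiniteDimensional k M]
    [Fintype ι] [Group P] [MulAction P ι] (W : ι → Submodule k M) (hind : iSupIndep W) (htop : ⨆ i, W i = ⊤)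
    (φ : P → M →ₗ[k] M) (hφ : ∀ y i, ∀ m ∈ W i, φ y m ∈ W (y • i))
    (F : Submodule k M) (hF : ∀ m ∈ F, ∀ y, φ y m = m) {d : ℕ} (hd : ∀ i, finrank k (W i) = d)
    {p f : ℕ} (hP : Nat.card P = p) (hp0 : 0 < p) (hf : ∀ y : P, y ≠ 1 → Nat.card (MulAction.fixedBy ι y) ≤ f) :
    finrank k F * p ≤ (Nat.card ι + (p - 1) * f) * d ∧ Nat.card ι * d ≤ finrank k M := by
  classical
  have hint : DirectSum.IsInternal W :=
    (DirectSum.isInternal_submodule_iff_iSupIndep_and_iSup_eq_top W).2 ⟨hind, htop⟩
  obtain ⟨π, h1, h2, h3, h4⟩ := exists_proj W hint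
  have hr : ∀ i, LinearMap.range (π i) = W i := by
    intro i
    apply le_antisymm
    · rintro _ ⟨m, rfl⟩
      exact h2 i m
    · intro m hm
      exact ⟨m, h3 i m hm⟩
  refine ⟨finrank_fixed_mul_le π h1 φ ?_ F hF (fun i => by rw [hr, hd]) hP hp0 hf, ?_⟩
  · intro y i m
    have h5 : π (y • i) (φ y m) = ∑ j, π (y • i) (φ y (π j m)) := by
      rw [← map_sum, ← map_sum, h1]
    rw [h5, Finset.sum_eq_single i]
    · exact (h3 _ _ (hφ y i _ (h2 i m))).symm
    · intro j _ hj
      exact h4 _ _ (fun h => hj (smul_left_cancel y h).symm) _ (hφ y j _ (h2 j m))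
    · intro h
      exact absurd (Finset.mem_univ i) h
  · have h5 := sum_finrank_range_le π (fun i j m hij => h4 i j hij _ (h2 j m)) (fun i m => h3 i _ (h2 i m))
    have h6 : ∑ i, finrank k (LinearMap.range (π i)) = Nat.card ι * d := by
      rw [Finset.sum_congr rfl (fun i _ => by rw [hr i, hd i]), Finset.sum_const, Finset.card_univ, smul_eq_mul,
        Nat.card_eq_fintype_card]
    rwa [h6] at h5

end Cfsg.Agent.H457.Half
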