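import Cfsg.Agent.H457.Half.Imprim
import Cfsg.Agent.H457.Half.Index
import Cfsg.Agent.H457.Half.Commutant

/-!
# Fixed spaces: the primitive case (helper457)

`E / Z(G)` a chief factor as in `ESec`; `End V` is the direct sum of the weight spaces of `E`, permuted by `P`.
-/

set_option autoImplicit false

namespace Cfsg.Agent.H457.Half

open Module Subgroup

section

variable {k G V : Type*} [Field k] [Group G] [AddCommGroup V] [Module k V]

theorem rho_injective (ρ : Representation k G V) (g : G) : Function.Injective (ρ g) := by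
  intro u v huv
  have h := congrArg (ρ g⁻¹) huv
  have h1 : ∀ u, ρ g⁻¹ (ρ g u) = u := by
    intro u
    rw [← Module.End.mul_apply, ← map_mul, inv_mul_cancel, map_one, Module.End.one_apply]
  rwa [h1, h1] at h

/-- central elements act as scalars -/
theorem exists_scalar [IsAlgClosed k] [FiniteDimensional k V] [Nontrivial V] {ρ : Representation k G V}
    (hirr : Irr ρ) {z : G} (hz : z ∈ center G) : ∃ c : k, ∀ v, ρ z v = c • v := by
  obtain ⟨μ, hμ⟩ := Module.End.exists_eigenvalue (ρ z : Module.End k V)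
  refine ⟨μ, ?_⟩
  rcases hirr (Module.End.eigenspace (ρ z : Module.End k V) μ) (by
    intro g u hu
    rw [Module.End.mem_eigenspace_iff] at hu ⊢
    have h1 : ρ z (ρ g u) = ρ g (ρ z u) := by
      rw [← Module.End.mul_apply, ← Module.End.mul_apply, ← map_mul, ← map_mul, mem_center_iff.1 hz g]
    rw [h1, hu, map_smul]) with h | h
  · exact absurd h hμ
  · intro v
    have h1 : v ∈ Module.End.eigenspace (ρ z : Module.End k V) μ := by rw [h]; trivial
    exact Module.End.mem_eigenspace_iff.1 h1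

/-- the central character -/
theorem exists_centralChar [IsAlgClosed k] [FiniteDimensional k V] [Nontrivial V] {ρ : Representation k G V}
    (hirr : Irr ρ) : ∃ ζ : center G →* k, ∀ (z : center G) v, ρ z v = ζ z • v := by
  have h := fun z : center G => exists_scalar hirr z.2
  choose c hc using h
  obtain ⟨v, hv⟩ := exists_ne (0 : V)
  refine ⟨{ toFun := c, map_one' := ?_, map_mul' := ?_ }, hc⟩
  · have h1 := hc 1 v
    rw [Subgroup.coe_one, map_one, Module.End.one_apply] at h1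
    have h2 : (1 - c 1) • v = 0 := by rw [sub_smul, one_smul, ← h1, sub_self]
    rw [smul_eq_zero, sub_eq_zero] at h2
    exact (h2.resolve_right hv).symm
  · intro a b
    have h1 := hc (a * b) v
    rw [Subgroup.coe_mul, map_mul, Module.End.mul_apply, hc b, map_smul, hc a, smul_smul] at h1
    have h2 : (c b * c a - c (a * b)) • v = 0 := by rw [sub_smul, h1, sub_self]
    rw [smul_eq_zero, sub_eq_zero] at h2
    rw [← h2.resolve_right hv, mul_comm]

end

/-- the data of the primitive case -/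
structure Prim {k G V : Type*} [Field k] [Group G] [AddCommGroup V] [Module k V] (ρ : Representation k G V)
    (E : Subgroup G) (r : ℕ) (ζ : center G →* k) : Prop where
  sec : ESec E r
  scal : ∀ (z : center G) v, ρ z v = ζ z • v
  inj : Function.Injective ζ

namespace Prim

variable {k G V : Type*} [Field k] [Group G] [AddCommGroup V] [Module k V] {ρ : Representation k G V}
  {E : Subgroup G} {r : ℕ} {ζ : center G →* k}

/-- the weight of `w` -/
def chi (h : Prim ρ E r ζ) (w : E) : Wt E k := fun u => ζ ⟨u * w * (u : G)⁻¹ * (w : G)⁻¹, h.sec.comm u u.2 w w.2⟩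

variable (h : Prim ρ E r ζ)

include h

theorem ne_zero (z : center G) : ζ z ≠ 0 := by
  intro h0
  have h1 : ζ (z * z⁻¹) = 0 := by rw [map_mul, h0, zero_mul]
  rw [mul_inv_cancel, map_one] at h1
  exact one_ne_zero h1

theorem chi_apply (w u : E) : h.chi w u = ζ ⟨u * w * (u : G)⁻¹ * (w : G)⁻¹, h.sec.comm u u.2 w w.2⟩ := rfl

theorem chi_ne_zero (w u : E) : h.chi w u ≠ 0 := h.ne_zero _

theorem chi_mul_left (w u u' : E) : h.chi w (u * u') = h.chi w u * h.chi w u' := by
  rw [chi_apply, chi_apply, chi_apply, ← map_mul]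
  congr 1
  apply Subtype.ext
  change (u : G) * u' * w * ((u : G) * u')⁻¹ * (w : G)⁻¹ =
    (u * w * (u : G)⁻¹ * (w : G)⁻¹) * (u' * w * (u' : G)⁻¹ * (w : G)⁻¹)
  have hc := mem_center_iff.1 (h.sec.comm u' u'.2 w w.2) (u : G)
  calc (u : G) * u' * w * ((u : G) * u')⁻¹ * (w : G)⁻¹
      = (u * (u' * w * (u' : G)⁻¹ * (w : G)⁻¹)) * w * (u : G)⁻¹ * (w : G)⁻¹ := by group
    _ = ((u' * w * (u' : G)⁻¹ * (w : G)⁻¹) * u) * w * (u : G)⁻¹ * (w : G)⁻¹ := by rw [hc]
    _ = (u' * w * (u' : G)⁻¹ * (w : G)⁻¹) * (u * w * (u : G)⁻¹ * (w : G)⁻¹) := by group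
    _ = _ := (mem_center_iff.1 (h.sec.comm u' u'.2 w w.2) _).symm

theorem chi_mul_right (w w' u : E) : h.chi (w * w') u = h.chi w u * h.chi w' u := by
  rw [chi_apply, chi_apply, chi_apply, ← map_mul]
  congr 1
  apply Subtype.ext
  change (u : G) * (w * w') * (u : G)⁻¹ * ((w : G) * w')⁻¹ =
    (u * w * (u : G)⁻¹ * (w : G)⁻¹) * (u * w' * (u : G)⁻¹ * (w' : G)⁻¹)
  have hc := mem_center_iff.1 (h.sec.comm u u.2 w' w'.2) (w : G)
  calc (u : G) * (w * w') * (u : G)⁻¹ * ((w : G) * w')⁻¹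
      = u * w * (u : G)⁻¹ * (u * w' * (u : G)⁻¹ * (w' : G)⁻¹) * (w : G)⁻¹ := by group
    _ = u * w * (u : G)⁻¹ * ((u * w' * (u : G)⁻¹ * (w' : G)⁻¹) * (w : G)⁻¹) := by group
    _ = u * w * (u : G)⁻¹ * ((w : G)⁻¹ * (u * w' * (u : G)⁻¹ * (w' : G)⁻¹)) := by
        rw [(mem_center_iff.1 (h.sec.comm u u.2 w' w'.2) (w : G)⁻¹)]
    _ = _ := by group

theorem chi_inv_mul (w u : E) : h.chi w⁻¹ u * h.chi w u = 1 := by
  rw [← chi_mul_right, inv_mul_cancel, chi_apply, ← map_one ζ]
  congr 1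
  apply Subtype.ext
  change (u : G) * 1 * (u : G)⁻¹ * (1 : G)⁻¹ = 1
  group

theorem chi_one (u : E) : h.chi 1 u = 1 := by
  rw [chi_apply, ← map_one ζ]
  congr 1
  apply Subtype.ext
  change (u : G) * 1 * (u : G)⁻¹ * (1 : G)⁻¹ = 1
  group

/-- `χ_w (u)` is `1` iff `u`, `w` commute -/
theorem chi_eq_one_iff (w u : E) : h.chi w u = 1 ↔ (u : G) * w = w * u := by
  rw [chi_apply, ← map_one ζ, h.inj.eq_iff, Subtype.ext_iff]
  change (u : G) * w * (u : G)⁻¹ * (w : G)⁻¹ = 1 ↔ _
  rw [mul_inv_eq_one, mul_inv_eq_iff_eq_mul]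

theorem chi_eq_iff (w w' : E) : h.chi w = h.chi w' ↔ (w : G)⁻¹ * w' ∈ center G := by
  have h1 : ∀ u, h.chi w u = h.chi w' u ↔ h.chi (w⁻¹ * w') u = 1 := by
    intro u
    rw [chi_mul_right]
    have h2 := h.chi_inv_mul w u
    have h3 := h.chi_ne_zero w u
    constructor
    · intro h4
      rw [← h4, h2]
    · intro h4
      have h5 : h.chi w⁻¹ u * h.chi w' u = h.chi w⁻¹ u * h.chi w u := by rw [h4, h2]
      exact (mul_left_cancel₀ (h.chi_ne_zero _ _) h5).symm
  constructor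
  · intro h2
    refine h.sec.cent _ (mul_mem (inv_mem w.2) w'.2) fun u hu => ?_
    have h3 := (h1 ⟨u, hu⟩).1 (by rw [h2])
    exact (h.chi_eq_one_iff _ _).1 h3
  · intro h2
    funext u
    rw [h1, chi_eq_one_iff]
    exact mem_center_iff.1 h2 u

/-- the action on weights -/
theorem smul_chi [E.Normal] (g : G) (w : E) : g • h.chi w = h.chi (MulAut.conjNormal g w) := by
  funext u
  rw [wt_smul, chi_apply, chi_apply]
  congr 1
  apply Subtype.ext
  change ((MulAut.conjNormal g⁻¹ u : E) : G) * w * ((MulAut.conjNormal g⁻¹ u : E) : G)⁻¹ * (w : G)⁻¹ =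
    u * (MulAut.conjNormal g w : E) * (u : G)⁻¹ * ((MulAut.conjNormal g w : E) : G)⁻¹
  have hc := h.sec.comm (MulAut.conjNormal g⁻¹ u : E) (MulAut.conjNormal g⁻¹ u : E).2 w w.2
  have h1 := mem_center_iff.1 hc g
  rw [MulAut.conjNormal_apply, MulAut.conjNormal_apply] at *
  calc g⁻¹ * u * g⁻¹⁻¹ * w * (g⁻¹ * u * g⁻¹⁻¹)⁻¹ * (w : G)⁻¹
      = g⁻¹ * (g * (g⁻¹ * u * g⁻¹⁻¹ * w * (g⁻¹ * u * g⁻¹⁻¹)⁻¹ * (w : G)⁻¹)) := by group
    _ = g⁻¹ * (g⁻¹ * u * g⁻¹⁻¹ * w * (g⁻¹ * u * g⁻¹⁻¹)⁻¹ * (w : G)⁻¹ * g) := by rw [h1]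
    _ = (g⁻¹ * (g⁻¹ * u * g⁻¹⁻¹ * w * (g⁻¹ * u * g⁻¹⁻¹)⁻¹ * (w : G)⁻¹)) * g := by group
    _ = ((g⁻¹ * u * g⁻¹⁻¹ * w * (g⁻¹ * u * g⁻¹⁻¹)⁻¹ * (w : G)⁻¹) * g⁻¹) * g := by
        rw [mem_center_iff.1 hc g⁻¹]
    _ = g * (g⁻¹ * u * g⁻¹⁻¹ * w * (g⁻¹ * u * g⁻¹⁻¹)⁻¹ * (w : G)⁻¹) * g⁻¹ := by rw [h1]; group
    _ = _ := by group

/-- the order of `E` is not divisible by the characteristic -/
theorem card_ne_zero [Finite G] : (Nat.card E : k) ≠ 0 := by
  intro h0
  obtain ⟨ℓ, hℓ⟩ := CharP.exists k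
  have hd : ℓ ∣ Nat.card E := (CharP.cast_eq_zero_iff k ℓ _).1 h0
  have hℓ0 : ℓ ≠ 0 := by
    rintro rfl
    exact Nat.card_pos.ne' (zero_dvd_iff.1 hd)
  have hℓp : ℓ.Prime := (CharP.char_is_prime_or_zero k ℓ).resolve_right hℓ0
  have hf : Fact ℓ.Prime := ⟨hℓp⟩
  obtain ⟨e, he⟩ := exists_prime_orderOf_dvd_card' ℓ hd
  have hroot : ∀ x : k, x ^ ℓ = 1 → x = 1 := by
    intro x hx
    have h1 : (x - 1) ^ ℓ = 0 := by rw [sub_pow_char, hx, one_pow, sub_self]
    exact sub_eq_zero.1 (pow_eq_zero_iff hℓ0 |>.1 h1)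
  have hpow : ∀ (n : ℕ) (u : E), h.chi u (e ^ n) = h.chi u e ^ n := by
    intro n u
    induction n with
    | zero =>
      rw [pow_zero, pow_zero, chi_eq_one_iff]
      simp
    | succ n ih => rw [pow_succ, chi_mul_left, ih, pow_succ]
  have he1 : e ^ ℓ = 1 := by rw [← he, pow_orderOf_eq_one]
  have hcomm : ∀ u : E, h.chi u e = 1 := by
    intro u
    apply hroot
    rw [← hpow, he1, chi_eq_one_iff]
    simp
  have hec : (e : G) ∈ center G := by
    refine h.sec.cent e e.2 fun u hu => ?_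
    have h1 := (h.chi_eq_one_iff ⟨u, hu⟩ e).1 (hcomm ⟨u, hu⟩)
    exact h1.symm
  have h2 : ζ ⟨e, hec⟩ = 1 := by
    apply hroot
    rw [← map_pow, ← map_one ζ]
    congr 1
    apply Subtype.ext
    change (e : G) ^ ℓ = 1
    exact congrArg (fun x : E => (x : G)) he1
  have h3 : (⟨e, hec⟩ : center G) = 1 := h.inj (by rw [h2, map_one])
  have h4 : e = 1 := Subtype.ext (congrArg (fun x : center G => (x : G)) h3)
  rw [h4, orderOf_one] at he
  exact hℓp.one_lt.ne he

/-! ### the action on `End V` -/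

theorem mem_wsp_linHom {χ : Wt E k} {T : V →ₗ[k] V} :
    T ∈ wsp (ρ.linHom ρ) E χ ↔ ∀ (u : E) v, ρ u (T v) = χ u • T (ρ u v) := by
  rw [mem_wsp]
  refine forall_congr' fun u => ?_
  rw [Representation.linHom_apply]
  constructor
  · intro h1 v
    have h2 := LinearMap.congr_fun h1 (ρ u v)
    rw [LinearMap.comp_apply, LinearMap.comp_apply, LinearMap.smul_apply] at h2
    rw [← h2, ← Module.End.mul_apply (ρ (u : G)⁻¹), ← map_mul, inv_mul_cancel, map_one, Module.End.one_apply]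
  · intro h1
    apply LinearMap.ext
    intro v
    rw [LinearMap.comp_apply, LinearMap.comp_apply, LinearMap.smul_apply, h1, ← Module.End.mul_apply (ρ (u : G)),
      ← map_mul, mul_inv_cancel, map_one, Module.End.one_apply]

/-- the commutation rule -/
theorem rho_comm (u w : E) (v : V) : ρ u (ρ w v) = h.chi w u • ρ w (ρ u v) := by
  have h1 := h.scal ⟨u * w * (u : G)⁻¹ * (w : G)⁻¹, h.sec.comm u u.2 w w.2⟩ (ρ w (ρ u v))
  rw [chi_apply, ← h1]
  rw [← Module.End.mul_apply, ← Module.End.mul_apply, ← Module.End.mul_apply, ← map_mul, ← map_mul, ← map_mul]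
  congr 2
  group

theorem linHom_center {z : G} (hz : z ∈ center G) : ρ.linHom ρ z = 1 := by
  apply LinearMap.ext
  intro T
  apply LinearMap.ext
  intro v
  rw [Representation.linHom_apply, LinearMap.comp_apply, LinearMap.comp_apply, Module.End.one_apply]
  have h1 := h.scal ⟨z, hz⟩ (T (ρ z⁻¹ v))
  have h2 := h.scal ⟨z, hz⟩ (ρ z⁻¹ v)
  change ρ z (T (ρ z⁻¹ v)) = _ at h1
  change ρ z (ρ z⁻¹ v) = _ at h2
  rw [h1, ← map_smul, ← h2]
  congr 1
  rw [← Module.End.mul_apply, ← map_mul, mul_inv_cancel, map_one, Module.End.one_apply]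

theorem iSupIndep_weights : iSupIndep (wsp (ρ.linHom ρ) E) := by
  apply iSupIndep_wsp'
  intro a ha b hb
  have h1 : a * b = (a * b * a⁻¹ * b⁻¹) * (b * a) := by group
  rw [← map_mul, ← map_mul, h1, map_mul, h.linHom_center (h.sec.comm a ha b hb), one_mul]

/-- the component of weight `w` -/
def proj [Fintype E] (w : E) (T : V →ₗ[k] V) : V →ₗ[k] V :=
  ∑ u : E, h.chi w⁻¹ u • ρ.linHom ρ (u : G) T

theorem proj_mem [Fintype E] (w : E) (T : V →ₗ[k] V) : h.proj w T ∈ wsp (ρ.linHom ρ) E (h.chi w) := by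
  intro a
  unfold proj
  rw [map_sum, Finset.smul_sum]
  rw [← Equiv.sum_comp (Equiv.mulLeft a) (fun u : E => h.chi w a • (h.chi w⁻¹ u • ρ.linHom ρ (u : G) T))]
  refine Finset.sum_congr rfl fun u _ => ?_
  rw [map_smul, ← Module.End.mul_apply, ← map_mul, Equiv.coe_mulLeft, chi_mul_left, smul_smul, ← mul_assoc,
    mul_comm (h.chi w a), h.chi_inv_mul, one_mul]
  rfl

theorem sum_proj [Fintype E] (T : V →ₗ[k] V) :
    ∑ w : E, h.proj w T = ((Nat.card E : k) * (Nat.card (center G) : k)) • T := by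
  classical
  unfold proj
  rw [Finset.sum_comm]
  have h1 : ∀ u : E, ∑ w : E, h.chi w⁻¹ u • ρ.linHom ρ (u : G) T =
      if (u : G) ∈ center G then (Nat.card E : k) • T else 0 := by
    intro u
    rw [← Finset.sum_smul]
    let f : E →* k :=
      { toFun := fun w => h.chi w⁻¹ u
        map_one' := by rw [inv_one, chi_one]
        map_mul' := by
          intro a b
          rw [mul_inv_rev, chi_mul_right, mul_comm] }
    split_ifs with hu
    · have h2 : ∀ w : E, h.chi w⁻¹ u = 1 := by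
        intro w
        rw [chi_eq_one_iff]
        exact (mem_center_iff.1 hu _).symm
      rw [Finset.sum_congr rfl (fun w _ => h2 w), Finset.sum_const, Finset.card_univ, nsmul_eq_mul, mul_one,
        h.linHom_center hu, Module.End.one_apply, Nat.card_eq_fintype_card]
    · have h2 : f ≠ 1 := by
        intro hf
        apply hu
        refine h.sec.cent u u.2 fun w hw => ?_
        have h3 : h.chi (⟨w, hw⟩ : E)⁻¹⁻¹ u = 1 := by
          have := DFunLike.congr_fun hf (⟨w, hw⟩ : E)⁻¹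
          exact this
        rw [inv_inv, chi_eq_one_iff] at h3
        exact h3.symm
      have h3 := sum_hom_units_eq_zero f h2
      have h4 : ∑ w : E, h.chi w⁻¹ u = 0 := h3
      rw [h4, zero_smul]
  have hcard : (Finset.univ.filter (fun x : E => (x : G) ∈ center G)).card = Nat.card (center G) := by
    rw [← Fintype.card_subtype, ← Nat.card_eq_fintype_card]
    exact Nat.card_congr
      { toFun := fun x => ⟨x.1, x.2⟩
        invFun := fun z => ⟨⟨z, h.sec.center_le z.2⟩, z.2⟩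
        left_inv := fun x => rfl
        right_inv := fun z => rfl }
  rw [Finset.sum_congr rfl (fun u _ => h1 u), Finset.sum_ite, Finset.sum_const_zero, add_zero, Finset.sum_const,
    hcard, ← Nat.cast_smul_eq_nsmul k, smul_smul, mul_comm]

theorem iSup_weights [Finite G] : ⨆ w : E, wsp (ρ.linHom ρ) E (h.chi w) = ⊤ := by
  classical
  have hf : Fintype E := Fintype.ofFinite E
  rw [eq_top_iff]
  intro T _
  have h1 := h.sum_proj T
  have hE := h.card_ne_zero
  have hZ : (Nat.card (center G) : k) ≠ 0 := by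
    obtain ⟨c, hc⟩ := Subgroup.card_dvd_of_le h.sec.center_le
    intro h0
    apply hE
    rw [hc, Nat.cast_mul, h0, zero_mul]
  have h2 : T = ((Nat.card E : k) * (Nat.card (center G) : k))⁻¹ • ∑ w : E, h.proj w T := by
    rw [h1, smul_smul, inv_mul_cancel₀ (mul_ne_zero hE hZ), one_smul]
  rw [h2]
  refine Submodule.smul_mem _ _ (Submodule.sum_mem _ fun w _ => ?_)
  exact (le_iSup (fun w : E => wsp (ρ.linHom ρ) E (h.chi w)) w) (h.proj_mem w T)

/-- all weight spaces have the same dimension -/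
theorem finrank_weight [FiniteDimensional k V] (w : E) :
    finrank k (wsp (ρ.linHom ρ) E (h.chi w)) = finrank k (wsp (ρ.linHom ρ) E (h.chi 1)) := by
  have hcomp : ∀ (a : E) (χ χ' : Wt E k) (T : V →ₗ[k] V), (∀ u, χ' u = h.chi a u * χ u) →
      T ∈ wsp (ρ.linHom ρ) E χ → (ρ a).comp T ∈ wsp (ρ.linHom ρ) E χ' := by
    intro a χ χ' T hχ hT
    rw [h.mem_wsp_linHom] at hT ⊢
    intro u v
    rw [LinearMap.comp_apply, LinearMap.comp_apply, h.rho_comm u a, hT u v, map_smul, smul_smul, hχ]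
  have hle : ∀ (a : E) (χ χ' : Wt E k), (∀ u, χ' u = h.chi a u * χ u) →
      finrank k (wsp (ρ.linHom ρ) E χ) ≤ finrank k (wsp (ρ.linHom ρ) E χ') := by
    intro a χ χ' hχ
    let L : wsp (ρ.linHom ρ) E χ →ₗ[k] wsp (ρ.linHom ρ) E χ' :=
      { toFun := fun T => ⟨(ρ a).comp (T : V →ₗ[k] V), hcomp a χ χ' T hχ T.2⟩
        map_add' := by
          intro S T
          apply Subtype.ext
          exact LinearMap.comp_add _ _ _
        map_smul' := by
          intro c T
          apply Subtype.ext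
          exact LinearMap.comp_smul _ _ _ }
    refine LinearMap.finrank_le_finrank_of_injective (f := L) ?_
    intro S T hST
    apply Subtype.ext
    apply LinearMap.ext
    intro v
    have h1 : ρ a ((S : V →ₗ[k] V) v) = ρ a ((T : V →ₗ[k] V) v) :=
      LinearMap.congr_fun (congrArg (fun z : wsp (ρ.linHom ρ) E χ' => (z : V →ₗ[k] V)) hST) v
    exact rho_injective ρ a h1
  apply le_antisymm
  · exact hle w⁻¹ _ _ fun u => by rw [h.chi_inv_mul, h.chi_one]
  · exact hle w _ _ fun u => by rw [h.chi_one, mul_one]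

/-- the set of weights -/
def Om [E.Normal] : SubMulAction G (Wt E k) where
  carrier := Set.range h.chi
  smul_mem' := by
    rintro g _ ⟨w, rfl⟩
    exact ⟨MulAut.conjNormal g w, (h.smul_chi g w).symm⟩

theorem mem_Om [E.Normal] {χ : Wt E k} : χ ∈ h.Om ↔ ∃ w, h.chi w = χ := Iff.rfl

theorem finite_Om [Finite G] [E.Normal] : Finite h.Om := by
  have h1 : (Set.range h.chi).Finite := Set.finite_range _
  exact h1.to_subtype

/-- `|E| ≤ |Ω| |Z|` -/
theorem card_le_Om [Finite G] [E.Normal] : Nat.card E ≤ Nat.card h.Om * Nat.card (center G) := by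
  have hfin := h.finite_Om
  rw [← Nat.card_prod]
  have hs : ∀ i : h.Om, ∃ w : E, h.chi w = i := fun i => i.2
  choose s hs using hs
  have hmem : ∀ w : E, ((s ⟨h.chi w, w, rfl⟩ : E) : G)⁻¹ * w ∈ center G := by
    intro w
    rw [← h.chi_eq_iff, hs]
  refine Nat.card_le_card_of_injective
    (fun w : E => ((⟨h.chi w, w, rfl⟩ : h.Om), (⟨_, hmem w⟩ : center G))) ?_
  intro w w' hw
  rw [Prod.mk.injEq] at hw
  obtain ⟨h1, h2⟩ := hw
  have h3 : ((s ⟨h.chi w, w, rfl⟩ : E) : G)⁻¹ * w = ((s ⟨h.chi w', w', rfl⟩ : E) : G)⁻¹ * w' :=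
    congrArg (fun x : center G => (x : G)) h2
  rw [h1] at h3
  exact Subtype.ext (mul_left_cancel h3)

/-- `|Fix| |Z| ≤ |D|` -/
theorem card_fixed_le [Finite G] [E.Normal] (y : G) :
    Nat.card (MulAction.fixedBy h.Om y) * Nat.card (center G) ≤ Nat.card (cen E y) := by
  have hfin := h.finite_Om
  rw [← Nat.card_prod]
  have hs : ∀ i : h.Om, ∃ w : E, h.chi w = i := fun i => i.2
  choose s hs using hs
  refine Nat.card_le_card_of_injective
    (fun q : MulAction.fixedBy h.Om y × center G => (⟨(s q.1 : G) * q.2, ?_⟩ : cen E y)) ?_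
  · rw [mem_cen]
    refine ⟨mul_mem (s q.1).2 (h.sec.center_le q.2.2), ?_⟩
    have h1 : h.chi (MulAut.conjNormal y (s q.1)) = h.chi (s q.1) := by
      rw [← h.smul_chi, hs]
      exact congrArg Subtype.val q.1.2
    have h2 := (h.chi_eq_iff _ _).1 h1.symm
    rw [MulAut.conjNormal_apply] at h2
    -- `s⁻¹ (y s y⁻¹) ∈ Z`
    have hz := q.2.2
    have h3 : y * ((s q.1 : G) * (q.2 : G)) * y⁻¹ * ((s q.1 : G) * (q.2 : G))⁻¹ =
        (s q.1 : G) * ((s q.1 : G)⁻¹ * (y * (s q.1 : G) * y⁻¹)) * (s q.1 : G)⁻¹ := by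
      have hz1 := mem_center_iff.1 hz y⁻¹
      calc y * ((s q.1 : G) * (q.2 : G)) * y⁻¹ * ((s q.1 : G) * (q.2 : G))⁻¹
          = y * (s q.1 : G) * ((q.2 : G) * y⁻¹) * (q.2 : G)⁻¹ * (s q.1 : G)⁻¹ := by group
        _ = y * (s q.1 : G) * (y⁻¹ * (q.2 : G)) * (q.2 : G)⁻¹ * (s q.1 : G)⁻¹ := by rw [hz1]
        _ = _ := by group
    rw [h3]
    exact (inferInstance : (center G).Normal).conj_mem _ h2 _
  · rintro ⟨i, z⟩ ⟨j, t⟩ hij
    have h1 : (s i : G) * z = (s j : G) * t := congrArg (fun x : cen E y => (x : G)) hij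
    have h2 : (i : h.Om) = j := by
      apply Subtype.ext
      rw [← hs i, ← hs j, h.chi_eq_iff]
      have h3 : (s i : G)⁻¹ * (s j : G) = z * (t : G)⁻¹ := by
        calc (s i : G)⁻¹ * (s j : G) = (s i : G)⁻¹ * ((s j : G) * t) * (t : G)⁻¹ := by group
          _ = (s i : G)⁻¹ * ((s i : G) * z) * (t : G)⁻¹ := by rw [h1]
          _ = z * (t : G)⁻¹ := by group
      rw [h3]
      exact mul_mem z.2 (inv_mem t.2)
    have h3 : i = j := Subtype.ext h2
    subst h3
    rw [Prod.mk.injEq]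
    exact ⟨rfl, Subtype.ext (mul_left_cancel h1)⟩

end Prim

/-- the arithmetic -/
theorem arith_final {p N f d c n b : ℕ} (hp : 5 ≤ p) (hf : (p - 1) ^ 2 * f ≤ N) (hc : c * p ≤ (N + (p - 1) * f) * d)
    (hd : N * d ≤ n ^ 2) (hbn : b ≤ n) (hb : b ^ 2 * (p - 1) + (n - b) ^ 2 ≤ (p - 1) * c) (hn : 0 < n) :
    2 * b < n := by
  obtain ⟨e, rfl⟩ : ∃ e, p = e + 1 := ⟨p - 1, by omega⟩
  obtain ⟨m, rfl⟩ : ∃ m, n = b + m := ⟨n - b, by omega⟩
  rw [Nat.add_sub_cancel] at hf hc hb
  rw [Nat.add_sub_cancel_left] at hb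
  have h1 : (e + 1) * (e * c) ≤ (e + 1) * (b + m) ^ 2 := by
    calc (e + 1) * (e * c) = e * (c * (e + 1)) := by ring
      _ ≤ e * ((N + e * f) * d) := Nat.mul_le_mul_left _ hc
      _ = (e * N + e ^ 2 * f) * d := by ring
      _ ≤ (e * N + N) * d := Nat.mul_le_mul_right _ (Nat.add_le_add_left hf _)
      _ = (e + 1) * (N * d) := by ring
      _ ≤ _ := Nat.mul_le_mul_left _ hd
  have h2 : e * c ≤ (b + m) ^ 2 := Nat.le_of_mul_le_mul_left h1 (by omega)
  have h3 : b ^ 2 * e + m ^ 2 ≤ (b + m) ^ 2 := hb.trans h2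
  by_contra hcon
  have h4 : m ≤ b := by omega
  have hb0 : 0 < b := by omega
  have h5 : b ^ 2 * 4 ≤ b ^ 2 * e := Nat.mul_le_mul_left _ (by omega)
  nlinarith

/-- **The primitive case.** -/
theorem primitive {k G V : Type*} [Field k] [IsAlgClosed k] [Group G] [Finite G]
    [AddCommGroup V] [Module k V] [FiniteDimensional k V] [Nontrivial V] {p : ℕ} [hp : Fact p.Prime] (hp3 : 3 < p)
    (P : Subgroup G) (hP : Nat.card P = p) (hgen : normalClosure (P : Set G) = ⊤)
    (ρ : Representation k G V) {E : Subgroup G} {r : ℕ} {ζ : center G →* k} (h : Prim ρ E r ζ)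
    (hidx : ∀ y ∈ P, y ≠ 1 → (p - 1) ^ 2 * Nat.card (cen E y) ≤ Nat.card E) :
    2 * finrank k (fix ρ P) < finrank k V := by
  classical
  have hEn := h.sec.normal
  have hp5 : 5 ≤ p := by
    by_contra hc
    have : p = 4 := by omega
    subst this
    exact absurd hp.out (by norm_num)
  -- a generator
  have hnt : ∃ x ∈ P, x ≠ 1 := by
    by_contra hc
    push Not at hc
    have : P = ⊥ := (Subgroup.eq_bot_iff_forall P).2 hc
    rw [this, Subgroup.card_bot] at hP
    exact hp.out.one_lt.ne hP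
  obtain ⟨x, hxP, hx1⟩ := hnt
  obtain ⟨hxo, hxg, -⟩ := orderOf_of_card hP hgen hxP hx1
  have hfin := h.finite_Om
  have hft : Fintype h.Om := Fintype.ofFinite _
  let W : h.Om → Submodule k (V →ₗ[k] V) := fun i => wsp (ρ.linHom ρ) E i
  have hind : iSupIndep W := h.iSupIndep_weights.comp Subtype.val_injective
  have htop : ⨆ i, W i = ⊤ := by
    rw [eq_top_iff, ← h.iSup_weights]
    exact iSup_le fun w => le_iSup W ⟨h.chi w, w, rfl⟩
  have hd : ∀ i : h.Om, finrank k (W i) = finrank k (wsp (ρ.linHom ρ) E (h.chi 1)) := by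
    rintro ⟨_, w, rfl⟩
    exact h.finrank_weight w
  have hf : ∀ y : P, y ≠ 1 → Nat.card (MulAction.fixedBy h.Om y) ≤ Nat.card h.Om / (p - 1) ^ 2 := by
    intro y hy
    have hpos : 0 < (p - 1) ^ 2 := by
      have : 0 < p - 1 := by omega
      positivity
    rw [Nat.le_div_iff_mul_le hpos]
    have h1 := hidx y y.2 (fun hc => hy (Subtype.ext hc))
    have h2 := h.card_fixed_le (y : G)
    have h3 := h.card_le_Om
    have hZ : 0 < Nat.card (center G) := Nat.card_pos
    refine Nat.le_of_mul_le_mul_right ?_ hZ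
    calc Nat.card (MulAction.fixedBy h.Om (y : G)) * (p - 1) ^ 2 * Nat.card (center G)
        = (p - 1) ^ 2 * (Nat.card (MulAction.fixedBy h.Om (y : G)) * Nat.card (center G)) := by ring
      _ ≤ (p - 1) ^ 2 * Nat.card (cen E y) := Nat.mul_le_mul_left _ h2
      _ ≤ _ := h1
      _ ≤ _ := h3
  obtain ⟨h1, h2⟩ := finrank_fixed_mul_le' (P := P) W hind htop (fun y => ρ.linHom ρ y)
    (fun y i m hm => smul_mem_wsp (ρ.linHom ρ) E (y : G) hm)
    (fix (ρ.linHom ρ) P) (fun m hm y => hm y y.2) hd hP hp.out.pos hf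
  -- the commutant
  have hcomm : comm (ρ x : V →ₗ[k] V) ≤ fix (ρ.linHom ρ) P := by
    intro T hT y hy
    have hTx : ∀ v, T (ρ x v) = ρ x (T v) := hT
    let N : Subgroup G :=
      { carrier := {g | ρ.linHom ρ g T = T}
        one_mem' := by rw [Set.mem_ofPred_eq, map_one]; rfl
        mul_mem' := by
          intro a b ha hb
          rw [Set.mem_ofPred_eq] at ha hb ⊢
          rw [map_mul, Module.End.mul_apply, hb, ha]
        inv_mem' := by
          intro a ha
          rw [Set.mem_ofPred_eq] at ha ⊢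
          nth_rw 1 [← ha]
          rw [← Module.End.mul_apply, ← map_mul, inv_mul_cancel, map_one]
          rfl }
    have hxN : x ∈ N := by
      change ρ.linHom ρ x T = T
      apply LinearMap.ext
      intro v
      rw [Representation.linHom_apply, LinearMap.comp_apply, LinearMap.comp_apply, ← hTx,
        ← Module.End.mul_apply (ρ x), ← map_mul, mul_inv_cancel, map_one, Module.End.one_apply]
    exact (zpowers_le.2 hxN) (hxg y hy)
  have hc : finrank k (comm (ρ x : V →ₗ[k] V)) ≤ finrank k (fix (ρ.linHom ρ) P) := Submodule.finrank_mono hcomm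
  have hker : finrank k (LinearMap.ker ((ρ x : V →ₗ[k] V) - LinearMap.id)) = finrank k (fix ρ P) := by
    have : LinearMap.ker ((ρ x : V →ₗ[k] V) - LinearMap.id) = fix ρ P := by
      ext v
      rw [LinearMap.mem_ker, LinearMap.sub_apply, LinearMap.id_apply, sub_eq_zero, mem_fix]
      constructor
      · intro hv y hy
        let N : Subgroup G :=
          { carrier := {g | ρ g v = v}
            one_mem' := by rw [Set.mem_ofPred_eq, map_one]; rfl
            mul_mem' := by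
              intro a b ha hb
              rw [Set.mem_ofPred_eq] at ha hb ⊢
              rw [map_mul, Module.End.mul_apply, hb, ha]
            inv_mem' := by
              intro a ha
              rw [Set.mem_ofPred_eq] at ha ⊢
              nth_rw 1 [← ha]
              rw [← Module.End.mul_apply, ← map_mul, inv_mul_cancel, map_one]
              rfl }
        have hxN : x ∈ N := hv
        exact (zpowers_le.2 hxN) (hxg y hy)
      · intro hv
        exact hv x hxP
    rw [this]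
  have hxp : (ρ x : V →ₗ[k] V) ^ p = 1 := by
    rw [← map_pow, ← hxo, pow_orderOf_eq_one, map_one]
  obtain ⟨h3, h4⟩ := main (ρ x : V →ₗ[k] V) hp.out.pos hxp hker
  have h5 : (p - 1) ^ 2 * (Nat.card h.Om / (p - 1) ^ 2) ≤ Nat.card h.Om := Nat.mul_div_le _ _
  have h6 : finrank k (V →ₗ[k] V) = finrank k V ^ 2 := by
    rw [Module.finrank_linearMap, pow_two]
  rw [h6] at h2
  exact arith_final hp5 h5 h1 h2 h3 (h4.trans (Nat.mul_le_mul_left _ hc)) finrank_pos

end Cfsg.Agent.H457.Half
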