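import Mathlib

/-!
# The class two section of a solvable group with central abelian normal subgroups (helper457)
-/

set_option autoImplicit false

namespace Cfsg.Agent.H457.Half

open Subgroup

/-- `E / Z(G)` is an elementary abelian `r`-group, a minimal normal subgroup of `G / Z(G)`; `Z(E) = Z(G)` -/
structure ESec {G : Type*} [Group G] (E : Subgroup G) (r : ℕ) : Prop where
  normal : E.Normal
  center_le : center G ≤ E
  not_le : ¬ E ≤ center G
  comm : ∀ u ∈ E, ∀ w ∈ E, u * w * u⁻¹ * w⁻¹ ∈ center G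
  pow : ∀ u ∈ E, u ^ r ∈ center G
  cent : ∀ w ∈ E, (∀ u ∈ E, u * w = w * u) → w ∈ center G
  min : ∀ N : Subgroup G, N.Normal → center G ≤ N → N ≤ E → N = center G ∨ N = E

variable {G : Type*} [Group G]

theorem pow_mul_eq {a b z : G} (hz : ∀ g, z * g = g * z) (h : a * b = z * b * a) (n : ℕ) :
    a ^ n * b = z ^ n * b * a ^ n := by
  have hzn : ∀ (n : ℕ) g, z ^ n * g = g * z ^ n := fun n g => (Commute.pow_left (hz g : Commute z g) n).eq
  induction n with
  | zero => simp
  | succ n ih =>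
    calc a ^ (n + 1) * b = a ^ n * (a * b) := by rw [pow_succ]; group
      _ = a ^ n * (z * b * a) := by rw [h]
      _ = a ^ n * z * b * a := by group
      _ = z * a ^ n * b * a := by rw [hz]
      _ = z * (a ^ n * b) * a := by group
      _ = z * (z ^ n * b * a ^ n) * a := by rw [ih]
      _ = z ^ (n + 1) * b * a ^ (n + 1) := by rw [pow_succ', pow_succ]; group

/-- existence -/
theorem exists_eSec [Finite G] [Group.IsSolvable G] (hab : ∀ A : Subgroup G, A.Normal →
    (∀ a ∈ A, ∀ b ∈ A, a * b = b * a) → A ≤ center G) (hna : center G ≠ ⊤) :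
    ∃ (E : Subgroup G) (r : ℕ), r.Prime ∧ ESec E r := by
  classical
  let S : Set (Subgroup G) := {N | N.Normal ∧ center G < N}
  have hS : S.Nonempty := ⟨⊤, inferInstance, lt_top_iff_ne_top.2 hna⟩
  have hwf : WellFounded ((· < ·) : Subgroup G → Subgroup G → Prop) := wellFounded_lt
  set E := hwf.min S hS with hE
  have hES : E ∈ S := hwf.min_mem S hS
  have hmin' : ∀ N ∈ S, ¬ N < E := fun N hN => hwf.not_lt_min S hN
  have hEn : E.Normal := hES.1
  have hZE : center G ≤ E := hES.2.le
  have hmin : ∀ N : Subgroup G, N.Normal → center G ≤ N → N ≤ E → N = center G ∨ N = E := by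
    intro N hN h1 h2
    by_cases h3 : N = center G
    · exact Or.inl h3
    · right
      by_contra h4
      exact hmin' N ⟨hN, lt_of_le_of_ne h1 (Ne.symm h3)⟩ (lt_of_le_of_ne h2 h4)
  have hnle : ¬ E ≤ center G := fun h => absurd (lt_of_lt_of_le hES.2 h) (lt_irrefl _)
  -- commutators are central
  let π := QuotientGroup.mk' (center G)
  have hπ : Function.Surjective π := QuotientGroup.mk'_surjective _
  have hker : π.ker = center G := QuotientGroup.ker_mk' _
  have hEb : E.map π ≠ ⊥ := by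
    rw [Ne, Subgroup.map_eq_bot_iff, hker]
    exact hnle
  have hcl : ⁅E.map π, E.map π⁆ < E.map π := Group.IsSolvable.commutator_lt_of_ne_bot hEb
  have hEmn : (E.map π).Normal := hEn.map π hπ
  have hEcomap : (E.map π).comap π = E := by
    rw [Subgroup.comap_map_eq, hker, sup_eq_left.2 hZE]
  have hcb : ⁅E.map π, E.map π⁆ = ⊥ := by
    have h1 : (⁅E.map π, E.map π⁆).comap π ≤ E :=
      (Subgroup.comap_mono hcl.le).trans hEcomap.le
    have h2 : center G ≤ (⁅E.map π, E.map π⁆).comap π :=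
      hker.symm.le.trans (Subgroup.ker_le_comap _ _)
    rcases hmin _ inferInstance h2 h1 with h | h
    · rw [← Subgroup.map_comap_eq_self_of_surjective hπ ⁅E.map π, E.map π⁆, h, Subgroup.map_eq_bot_iff, hker]
    · exfalso
      apply hcl.ne
      rw [← Subgroup.map_comap_eq_self_of_surjective hπ ⁅E.map π, E.map π⁆, h]
  have hcomm : ∀ u ∈ E, ∀ w ∈ E, u * w * u⁻¹ * w⁻¹ ∈ center G := by
    intro u hu w hw
    have h1 : π (u * w * u⁻¹ * w⁻¹) ∈ ⁅E.map π, E.map π⁆ := by
      rw [map_mul, map_mul, map_mul, map_inv, map_inv, ← commutatorElement_def]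
      exact Subgroup.commutator_mem_commutator ⟨u, hu, rfl⟩ ⟨w, hw, rfl⟩
    rw [hcb, mem_bot, ← MonoidHom.mem_ker, hker] at h1
    exact h1
  have hcent : ∀ w ∈ E, (∀ u ∈ E, u * w = w * u) → w ∈ center G := by
    intro w hw h
    refine hab (E ⊓ centralizer (E : Set G)) ?_ ?_ (mem_inf.2 ⟨hw, mem_centralizer_iff.2 h⟩)
    · infer_instance
    · intro a ha b hb
      exact mem_centralizer_iff.1 (mem_inf.1 hb).2 a (mem_inf.1 ha).1
  -- a prime divisor of `|E / Z|`
  have hcard : Nat.card (E.map π) ≠ 1 := fun h => hEb (Subgroup.card_eq_one.1 h)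
  obtain ⟨r, hr, hrd⟩ := Nat.exists_prime_and_dvd hcard
  have hfr : Fact r.Prime := ⟨hr⟩
  obtain ⟨e, he⟩ := exists_prime_orderOf_dvd_card' r hrd
  have hmulpow : ∀ a ∈ E, ∀ b ∈ E, (π a * π b) ^ r = π a ^ r * π b ^ r := by
    intro a ha b hb
    have h1 : Commute (π a) (π b) := by
      have h2 : π (a * b * a⁻¹ * b⁻¹) = 1 := by
        rw [← MonoidHom.mem_ker, hker]
        exact hcomm a ha b hb
      rw [commute_iff_eq, ← map_mul, ← map_mul]
      have h3 : a * b = (a * b * a⁻¹ * b⁻¹) * (b * a) := by group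
      rw [h3, map_mul, h2, one_mul]
    exact h1.mul_pow r
  have hmem : ∀ g : G, g ∈ center G ↔ π g = 1 := fun g => by rw [← MonoidHom.mem_ker, hker]
  let N : Subgroup G :=
    { carrier := {g | g ∈ E ∧ g ^ r ∈ center G}
      one_mem' := ⟨E.one_mem, by rw [one_pow]; exact one_mem _⟩
      mul_mem' := by
        rintro a b ⟨ha, ha'⟩ ⟨hb, hb'⟩
        refine ⟨mul_mem ha hb, ?_⟩
        rw [hmem, map_pow] at ha' hb' ⊢
        rw [map_mul, hmulpow a ha b hb, ha', hb', one_mul]
      inv_mem' := by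
        rintro a ⟨ha, ha'⟩
        exact ⟨inv_mem ha, by rw [inv_pow]; exact inv_mem ha'⟩ }
  have hNn : N.Normal := by
    refine ⟨?_⟩
    rintro n ⟨hn, hn'⟩ g
    refine ⟨hEn.conj_mem n hn g, ?_⟩
    rw [conj_pow]
    exact (inferInstance : (center G).Normal).conj_mem _ hn' g
  have hpow : ∀ u ∈ E, u ^ r ∈ center G := by
    rcases hmin N hNn (fun z hz => ⟨hZE hz, pow_mem hz r⟩) (fun g hg => hg.1) with h | h
    · exfalso
      obtain ⟨g, hg, hge⟩ := e.2
      have h1 : g ∈ N := by
        refine ⟨hg, ?_⟩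
        rw [hmem, map_pow, hge]
        have h2 : e ^ r = 1 := by rw [← he, pow_orderOf_eq_one]
        exact congrArg Subtype.val h2
      rw [h, hmem, hge] at h1
      have h2 : e = 1 := Subtype.ext h1
      rw [h2, orderOf_one] at he
      exact hr.one_lt.ne he
    · intro u hu
      rw [← h] at hu
      exact hu.2
  exact ⟨E, r, hr, hEn, hZE, hnle, hcomm, hpow, hcent, hmin⟩

end Cfsg.Agent.H457.Half
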